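import Mathlib
import Cfsg.Prelude.Def_Solvable

set_option autoImplicit false

/-!
Generic lemmas on `O_{p'}` of a centraliser inside an automorphism group.
-/

namespace Cfsg.Agent.Lib.Helper1.PSpAut

/-- `C` has a nontrivial normal subgroup of order prime to `p` (all inside the ambient group) -/
def HasPPrime {X : Type*} [Group X] (p : ℕ) (C : Subgroup X) : Prop :=
  ∃ N : Subgroup X, N ≤ C ∧ (∀ c ∈ C, ∀ n ∈ N, c * n * c⁻¹ ∈ N) ∧ (Nat.card N).Coprime p ∧ N ≠ ⊥

theorem pPrimeCore_ne_bot_iff {X : Type*} [Group X] (p : ℕ) (C : Subgroup X) :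
    Cfsg.pPrimeCore p ↥C ≠ ⊥ ↔ HasPPrime p C := by
  constructor
  · intro h
    by_contra hcon
    apply h
    rw [Cfsg.pPrimeCore, eq_bot_iff]
    apply sSup_le
    rintro N' ⟨hn, hc⟩
    by_contra hne
    apply hcon
    refine ⟨N'.map C.subtype, ?_, ?_, ?_, ?_⟩
    · rintro _ ⟨y, -, rfl⟩
      exact y.2
    · rintro c hc' _ ⟨y, hy, rfl⟩
      exact ⟨⟨c, hc'⟩ * y * ⟨c, hc'⟩⁻¹, hn.conj_mem y hy ⟨c, hc'⟩, rfl⟩
    · rw [Subgroup.card_map_of_injective C.subtype_injective]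
      exact hc
    · intro h0
      apply hne
      rw [(Subgroup.map_eq_bot_iff_of_injective N' C.subtype_injective).1 h0]
  · rintro ⟨N, hle, hnorm, hcop, hne⟩ h0
    have hN : (N.subgroupOf C) ≤ Cfsg.pPrimeCore p ↥C := by
      apply le_sSup
      refine ⟨⟨fun n hn c => hnorm c.1 c.2 n.1 hn⟩, ?_⟩
      rw [Nat.card_congr (Subgroup.subgroupOfEquivOfLe hle).toEquiv]
      exact hcop
    rw [h0, le_bot_iff, Subgroup.subgroupOf_eq_bot] at hN
    exact hne (disjoint_self.1 (hN.mono_right hle))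

theorem HasPPrime.map {X : Type*} [Group X] {p : ℕ} {C : Subgroup X} (h : HasPPrime p C)
    (Ψ : X ≃* X) : HasPPrime p (C.map Ψ.toMonoidHom) := by
  obtain ⟨N, hle, hnorm, hcop, hne⟩ := h
  refine ⟨N.map Ψ.toMonoidHom, Subgroup.map_mono hle, ?_, ?_, ?_⟩
  · rintro _ ⟨c, hc, rfl⟩ _ ⟨n, hn, rfl⟩
    exact ⟨c * n * c⁻¹, hnorm c hc n hn, by simp⟩
  · rw [Subgroup.card_map_of_injective Ψ.injective]
    exact hcop
  · intro h0
    exact hne ((Subgroup.map_eq_bot_iff_of_injective N Ψ.injective).1 h0)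

theorem map_conj_inf_centralizer {X : Type*} [Group X] (A : Subgroup X) (α x : X) :
    (A ⊓ Subgroup.centralizer {x}).map (MulAut.conj α).toMonoidHom =
      A.map (MulAut.conj α).toMonoidHom ⊓ Subgroup.centralizer {α * x * α⁻¹} := by
  ext y
  constructor
  · rintro ⟨z, ⟨hz1, hz2⟩, rfl⟩
    have hz3 := Subgroup.mem_centralizer_singleton_iff.1 hz2
    refine ⟨⟨z, hz1, rfl⟩, ?_⟩
    apply Subgroup.mem_centralizer_singleton_iff.2
    show α * z * α⁻¹ * (α * x * α⁻¹) = α * x * α⁻¹ * (α * z * α⁻¹)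
    calc α * z * α⁻¹ * (α * x * α⁻¹) = α * (z * x) * α⁻¹ := by group
      _ = α * (x * z) * α⁻¹ := by rw [hz3]
      _ = _ := by group
  · rintro ⟨⟨z, hz1, rfl⟩, hy2⟩
    have hy3 : α * z * α⁻¹ * (α * x * α⁻¹) = α * x * α⁻¹ * (α * z * α⁻¹) :=
      Subgroup.mem_centralizer_singleton_iff.1 hy2
    refine ⟨z, ⟨hz1, ?_⟩, rfl⟩
    apply Subgroup.mem_centralizer_singleton_iff.2
    calc z * x = α⁻¹ * (α * z * α⁻¹ * (α * x * α⁻¹)) * α := by group
      _ = α⁻¹ * (α * x * α⁻¹ * (α * z * α⁻¹)) * α := by rw [hy3]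
      _ = _ := by group

theorem hasPPrime_conj_iff {X : Type*} [Group X] (p : ℕ) (A : Subgroup X) (α x : X) :
    HasPPrime p (A.map (MulAut.conj α).toMonoidHom ⊓ Subgroup.centralizer {α * x * α⁻¹}) ↔
      HasPPrime p (A ⊓ Subgroup.centralizer {x}) := by
  rw [← map_conj_inf_centralizer]
  constructor
  · intro h
    have h1 := h.map (MulAut.conj α).symm
    rw [Subgroup.map_map] at h1
    have h2 : (MulAut.conj α).symm.toMonoidHom.comp (MulAut.conj α).toMonoidHom =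
        MonoidHom.id X := by
      ext y
      simp
    rwa [h2, Subgroup.map_id] at h1
  · intro h
    exact h.map _

/-- fixed points of a conjugate automorphism -/
theorem card_fix_conj {K : Type*} [Group K] (α x : MulAut K) :
    Nat.card ↥(MonoidHom.eqLocus (α * x * α⁻¹).toMonoidHom (MonoidHom.id K)) =
      Nat.card ↥(MonoidHom.eqLocus x.toMonoidHom (MonoidHom.id K)) := by
  symm
  apply Nat.card_congr
  refine ⟨fun k => ⟨α k.1, ?_⟩, fun k => ⟨α⁻¹ k.1, ?_⟩, ?_, ?_⟩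
  · have hk : x k.1 = k.1 := k.2
    show α (x (α⁻¹ (α k.1))) = α k.1
    rw [MulAut.inv_apply_self, hk]
  · have hk : α (x (α⁻¹ k.1)) = k.1 := k.2
    show x (α⁻¹ k.1) = α⁻¹ k.1
    conv_rhs => rw [← hk, MulAut.inv_apply_self]
  · intro k
    apply Subtype.ext
    exact MulAut.inv_apply_self _ _ _
  · intro k
    apply Subtype.ext
    exact MulAut.apply_inv_self _ _ _

end Cfsg.Agent.Lib.Helper1.PSpAut
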