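import Mathlib
import Cfsg.Prelude.Def_LieTypeDatum
import Cfsg.Agent.Lib.Helper17.Symp
import Cfsg.Agent.Lib.Helper43.PSpRank
import Cfsg.Agent.Lib.Helper6.OmegaIso4

set_option autoImplicit false

/-!
Automorphisms of `PSp_{2m}(F)`: conjugation by the conformal symplectic group, field
automorphisms, bridges to the predicates of `Def_LieTypeDatum`.
-/

namespace Cfsg.Agent.Lib.Helper1.PSpAut

open Matrix MatrixGroups

variable {m : ℕ} {F : Type*} [Field F] {K : Type*} [Field K]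

/-! ### the form in matrix terms -/

theorem sympForm_mulVec (A B : Matrix (Fin m ⊕ Fin m) (Fin m ⊕ Fin m) F)
    (u v : Fin m ⊕ Fin m → F) :
    Cfsg.sympForm m F (A *ᵥ u) (B *ᵥ v) = u ⬝ᵥ ((Aᵀ * J (Fin m) F * B) *ᵥ v) := by
  unfold Cfsg.sympForm
  rw [← Matrix.vecMul_transpose, ← Matrix.dotProduct_mulVec, Matrix.mulVec_mulVec,
    Matrix.mulVec_mulVec, Matrix.mul_assoc]

theorem eq_of_forall_dot {M N : Matrix (Fin m ⊕ Fin m) (Fin m ⊕ Fin m) F}
    (h : ∀ u v, u ⬝ᵥ (M *ᵥ v) = u ⬝ᵥ (N *ᵥ v)) : M = N := by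
  ext i j
  have := h (Pi.single i 1) (Pi.single j 1)
  simpa using this

theorem mem_GSp_iff {g : GL (Fin m ⊕ Fin m) F} :
    g ∈ Cfsg.GSp m F ↔ ∃ c : Fˣ, g.1ᵀ * J (Fin m) F * g.1 = (c : F) • J (Fin m) F := by
  constructor
  · rintro ⟨c, hc⟩
    refine ⟨c, eq_of_forall_dot fun u v => ?_⟩
    rw [← sympForm_mulVec, hc, Matrix.smul_mulVec, dotProduct_smul]
    rfl
  · rintro ⟨c, hc⟩
    refine ⟨c, fun u v => ?_⟩
    rw [sympForm_mulVec, hc, Matrix.smul_mulVec, dotProduct_smul]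
    rfl

theorem smul_J_inj (hm : 0 < m) {a b : F} (h : a • J (Fin m) F = b • J (Fin m) F) : a = b := by
  have := congrFun (congrFun h (Sum.inr ⟨0, hm⟩)) (Sum.inl ⟨0, hm⟩)
  simpa [J] using this

theorem J_map (j : K →+* F) : (J (Fin m) K).map j = J (Fin m) F := by
  ext (i | i) (k | k) <;> simp [J, Matrix.one_apply, apply_ite j]

theorem J_map_apply (j : K →+* F) (i k : Fin m ⊕ Fin m) :
    j (J (Fin m) K i k) = J (Fin m) F i k := congrFun (congrFun (J_map j) i) k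

/-- the multiplier of a conformal symplectic matrix -/
noncomputable def mu0 (g : ↥(Cfsg.GSp m F)) : Fˣ := Classical.choose (mem_GSp_iff.1 g.2)

theorem mu0_spec (g : ↥(Cfsg.GSp m F)) :
    g.1.1ᵀ * J (Fin m) F * g.1.1 = (mu0 g : F) • J (Fin m) F :=
  Classical.choose_spec (mem_GSp_iff.1 g.2)

theorem mu0_eq (hm : 0 < m) (g : ↥(Cfsg.GSp m F)) (c : Fˣ)
    (h : g.1.1ᵀ * J (Fin m) F * g.1.1 = (c : F) • J (Fin m) F) : mu0 g = c := by
  apply Units.ext
  apply smul_J_inj hm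
  rw [← mu0_spec, h]

/-- the multiplier as a homomorphism -/
noncomputable def mu (hm : 0 < m) : ↥(Cfsg.GSp m F) →* Fˣ where
  toFun := mu0
  map_one' := mu0_eq hm 1 1 (by
    show (1 : Matrix (Fin m ⊕ Fin m) (Fin m ⊕ Fin m) F)ᵀ * J (Fin m) F * 1 = _
    simp)
  map_mul' a b := mu0_eq hm _ _ (by
    show (a.1.1 * b.1.1)ᵀ * J (Fin m) F * (a.1.1 * b.1.1) = _
    calc (a.1.1 * b.1.1)ᵀ * J (Fin m) F * (a.1.1 * b.1.1)
        = b.1.1ᵀ * (a.1.1ᵀ * J (Fin m) F * a.1.1) * b.1.1 := by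
          simp only [transpose_mul, Matrix.mul_assoc]
      _ = (mu0 a : F) • (b.1.1ᵀ * J (Fin m) F * b.1.1) := by
          rw [mu0_spec, Matrix.mul_smul, Matrix.smul_mul]
      _ = _ := by rw [mu0_spec, smul_smul, Units.val_mul])

theorem mu_spec (hm : 0 < m) (g : ↥(Cfsg.GSp m F)) :
    g.1.1ᵀ * J (Fin m) F * g.1.1 = (mu hm g : F) • J (Fin m) F := mu0_spec g

theorem mu_eq (hm : 0 < m) (g : ↥(Cfsg.GSp m F)) (c : Fˣ)
    (h : g.1.1ᵀ * J (Fin m) F * g.1.1 = (c : F) • J (Fin m) F) : mu hm g = c := mu0_eq hm g c h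

/-! ### the projection -/

/-- the projection `Sp → PSp` -/
abbrev pm (x : symplecticGroup (Fin m) F) : Cfsg.PSp m F := QuotientGroup.mk x

theorem pm_surjective : Function.Surjective (pm : symplecticGroup (Fin m) F → _) :=
  QuotientGroup.mk_surjective

theorem exists_eps_of_pm_eq {x y : symplecticGroup (Fin m) F} (h : pm x = pm y) :
    ∃ ε : F, y.1 = ε • x.1 := by
  rw [QuotientGroup.eq] at h
  have hy : y = x * (x⁻¹ * y) := by group
  have hy' : y.1 = x.1 * (x⁻¹ * y).1 := by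
    conv_lhs => rw [hy]
    rfl
  rcases Cfsg.Agent.Lib.Helper43.sp_center_coe m _ h with h1 | h1
  · exact ⟨1, by rw [hy', h1, Matrix.mul_one, one_smul]⟩
  · exact ⟨-1, by rw [hy', h1, Matrix.mul_neg, Matrix.mul_one, neg_smul, one_smul]⟩

/-! ### automorphisms of the quotient -/

/-- an automorphism of `Sp` induces one of `PSp` -/
noncomputable def autQ (e : symplecticGroup (Fin m) F ≃* symplecticGroup (Fin m) F) :
    Cfsg.PSp m F ≃* Cfsg.PSp m F :=
  QuotientGroup.congr _ _ e (Subgroup.characteristic_iff_map_eq.1 inferInstance e)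

@[simp] theorem autQ_pm (e : symplecticGroup (Fin m) F ≃* symplecticGroup (Fin m) F)
    (x : symplecticGroup (Fin m) F) : autQ e (pm x) = pm (e x) := rfl

noncomputable def autQHom : MulAut (symplecticGroup (Fin m) F) →* MulAut (Cfsg.PSp m F) where
  toFun := autQ
  map_one' := by
    ext x
    obtain ⟨x, rfl⟩ := pm_surjective x
    rfl
  map_mul' a b := by
    ext x
    obtain ⟨x, rfl⟩ := pm_surjective x
    rfl

/-! ### conjugation by `GSp` -/

theorem conj_mem (g : ↥(Cfsg.GSp m F)) (x : symplecticGroup (Fin m) F) :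
    g.1.1 * x.1 * g.1⁻¹.1 ∈ symplecticGroup (Fin m) F := by
  rw [SymplecticGroup.mem_iff']
  have hx := SymplecticGroup.mem_iff'.1 x.2
  calc (g.1.1 * x.1 * g.1⁻¹.1)ᵀ * J (Fin m) F * (g.1.1 * x.1 * g.1⁻¹.1)
      = g.1⁻¹.1ᵀ * (x.1ᵀ * (g.1.1ᵀ * J (Fin m) F * g.1.1) * x.1) * g.1⁻¹.1 := by
        simp only [transpose_mul, Matrix.mul_assoc]
    _ = g.1⁻¹.1ᵀ * ((mu0 g : F) • (x.1ᵀ * J (Fin m) F * x.1)) * g.1⁻¹.1 := by
        rw [mu0_spec, Matrix.mul_smul, Matrix.smul_mul]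
    _ = g.1⁻¹.1ᵀ * (g.1.1ᵀ * J (Fin m) F * g.1.1) * g.1⁻¹.1 := by rw [hx, mu0_spec]
    _ = (g.1.1 * g.1⁻¹.1)ᵀ * J (Fin m) F * (g.1.1 * g.1⁻¹.1) := by
        simp only [transpose_mul, Matrix.mul_assoc]
    _ = _ := by rw [Units.mul_inv]; simp

/-- conjugation by an element of `GSp` on `Sp` -/
def cS (g : ↥(Cfsg.GSp m F)) : symplecticGroup (Fin m) F ≃* symplecticGroup (Fin m) F where
  toFun x := ⟨g.1.1 * x.1 * g.1⁻¹.1, conj_mem g x⟩
  invFun x := ⟨g.1⁻¹.1 * x.1 * g.1.1, conj_mem g⁻¹ x⟩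
  left_inv x := by
    apply Subtype.ext
    show g.1⁻¹.1 * (g.1.1 * x.1 * g.1⁻¹.1) * g.1.1 = x.1
    rw [Matrix.mul_assoc, Matrix.mul_assoc, Units.inv_mul, Matrix.mul_one, ← Matrix.mul_assoc,
      Units.inv_mul, Matrix.one_mul]
  right_inv x := by
    apply Subtype.ext
    show g.1.1 * (g.1⁻¹.1 * x.1 * g.1.1) * g.1⁻¹.1 = x.1
    rw [Matrix.mul_assoc, Matrix.mul_assoc, Units.mul_inv, Matrix.mul_one, ← Matrix.mul_assoc,
      Units.mul_inv, Matrix.one_mul]
  map_mul' x y := by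
    apply Subtype.ext
    show g.1.1 * (x.1 * y.1) * g.1⁻¹.1 = (g.1.1 * x.1 * g.1⁻¹.1) * (g.1.1 * y.1 * g.1⁻¹.1)
    have : g.1⁻¹.1 * (g.1.1 * y.1 * g.1⁻¹.1) = y.1 * g.1⁻¹.1 := by
      rw [← Matrix.mul_assoc, ← Matrix.mul_assoc, Units.inv_mul, Matrix.one_mul]
    rw [Matrix.mul_assoc (g.1.1 * x.1), this]
    simp only [Matrix.mul_assoc]

theorem cS_val (g : ↥(Cfsg.GSp m F)) (x : symplecticGroup (Fin m) F) :
    (cS g x).1 = g.1.1 * x.1 * g.1⁻¹.1 := rfl

theorem cS_mul (g : ↥(Cfsg.GSp m F)) (x : symplecticGroup (Fin m) F) :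
    (cS g x).1 * g.1.1 = g.1.1 * x.1 := by
  rw [cS_val, Matrix.mul_assoc, Units.inv_mul, Matrix.mul_one]

theorem cS_eq_of_mul {g : ↥(Cfsg.GSp m F)} {x y : symplecticGroup (Fin m) F}
    (h : y.1 * g.1.1 = g.1.1 * x.1) : cS g x = y := by
  apply Subtype.ext
  rw [cS_val, ← h, Matrix.mul_assoc, Units.mul_inv, Matrix.mul_one]

def cSHom : ↥(Cfsg.GSp m F) →* MulAut (symplecticGroup (Fin m) F) where
  toFun := cS
  map_one' := by
    ext x : 1
    apply cS_eq_of_mul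
    show x.1 * 1 = 1 * x.1
    simp
  map_mul' a b := by
    ext x : 1
    apply cS_eq_of_mul
    show (cS a (cS b x)).1 * (a.1.1 * b.1.1) = (a.1.1 * b.1.1) * x.1
    rw [← Matrix.mul_assoc, cS_mul, Matrix.mul_assoc, cS_mul, Matrix.mul_assoc]

/-- conjugation by `GSp` on `PSp` -/
noncomputable def cG : ↥(Cfsg.GSp m F) →* MulAut (Cfsg.PSp m F) := autQHom.comp cSHom

theorem cG_pm (g : ↥(Cfsg.GSp m F)) (x : symplecticGroup (Fin m) F) :
    cG g (pm x) = pm (cS g x) := rfl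

/-! ### base change -/

theorem map_mem_sp (j : K →+* F) (x : symplecticGroup (Fin m) K) :
    x.1.map j ∈ symplecticGroup (Fin m) F := by
  rw [SymplecticGroup.mem_iff']
  have hx := SymplecticGroup.mem_iff'.1 x.2
  rw [← J_map j, ← transpose_map, ← Matrix.map_mul, ← Matrix.map_mul, hx]

/-- base change `Sp(K) → Sp(F)` -/
def spMap (j : K →+* F) : symplecticGroup (Fin m) K →* symplecticGroup (Fin m) F where
  toFun x := ⟨x.1.map j, map_mem_sp j x⟩
  map_one' := by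
    apply Subtype.ext
    show (1 : Matrix (Fin m ⊕ Fin m) (Fin m ⊕ Fin m) K).map j = 1
    exact Matrix.map_one j (map_zero j) (map_one j)
  map_mul' x y := by
    apply Subtype.ext
    show (x.1 * y.1).map j = x.1.map j * y.1.map j
    exact Matrix.map_mul

theorem spMap_val (j : K →+* F) (x : symplecticGroup (Fin m) K) : (spMap j x).1 = x.1.map j := rfl

/-- a ring automorphism acting on `Sp` -/
def fldS (σ : F ≃+* F) : symplecticGroup (Fin m) F ≃* symplecticGroup (Fin m) F where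
  toFun := spMap (σ : F →+* F)
  invFun := spMap (σ.symm : F →+* F)
  left_inv A := by
    apply Subtype.ext
    ext i j
    simp [spMap_val]
  right_inv A := by
    apply Subtype.ext
    ext i j
    simp [spMap_val]
  map_mul' A B := map_mul _ A B

theorem fldS_val (σ : F ≃+* F) (x : symplecticGroup (Fin m) F) : (fldS σ x).1 = x.1.map σ := rfl

/-- the standard field automorphisms, as a homomorphism -/
noncomputable def fl : (F ≃+* F) →* MulAut (Cfsg.PSp m F) where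
  toFun σ := autQ (fldS σ)
  map_one' := by
    ext x
    obtain ⟨x, rfl⟩ := pm_surjective x
    rfl
  map_mul' a b := by
    ext x
    obtain ⟨x, rfl⟩ := pm_surjective x
    rfl

theorem fl_pm (σ : F ≃+* F) (x : symplecticGroup (Fin m) F) : fl σ (pm x) = pm (fldS σ x) := rfl

theorem map_mem_GSp (j : K →+* F) (g : ↥(Cfsg.GSp m K)) :
    GeneralLinearGroup.map j g.1 ∈ Cfsg.GSp m F := by
  rw [mem_GSp_iff]
  refine ⟨Units.map (j : K →* F) (mu0 g), ?_⟩
  show (g.1.1.map j)ᵀ * J (Fin m) F * g.1.1.map j = j (mu0 g : K) • J (Fin m) F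
  rw [← J_map j, ← transpose_map, ← Matrix.map_mul, ← Matrix.map_mul, mu0_spec]
  ext i k
  simp [J_map_apply]

/-- base change `GSp(K) → GSp(F)` -/
noncomputable def gmap (j : K →+* F) : ↥(Cfsg.GSp m K) →* ↥(Cfsg.GSp m F) where
  toFun g := ⟨GeneralLinearGroup.map j g.1, map_mem_GSp j g⟩
  map_one' := by
    apply Subtype.ext
    show GeneralLinearGroup.map j 1 = 1
    exact map_one _
  map_mul' a b := by
    apply Subtype.ext
    show GeneralLinearGroup.map j (a.1 * b.1) = _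
    exact map_mul _ _ _

theorem gmap_val (j : K →+* F) (g : ↥(Cfsg.GSp m K)) : (gmap j g).1.1 = g.1.1.map j := rfl

theorem mu_gmap (hm : 0 < m) (j : K →+* F) (g : ↥(Cfsg.GSp m K)) :
    (mu hm (gmap j g) : F) = j (mu hm g : K) := by
  have : mu hm (gmap j g) = Units.map (j : K →* F) (mu hm g) := by
    apply mu_eq
    show (g.1.1.map j)ᵀ * J (Fin m) F * g.1.1.map j = j (mu hm g : K) • J (Fin m) F
    rw [← J_map j, ← transpose_map, ← Matrix.map_mul, ← Matrix.map_mul, mu_spec hm]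
    ext i k
    simp [J_map_apply]
  rw [this]
  rfl

/-- the action of a field automorphism on `GSp` -/
noncomputable abbrev gm (σ : F ≃+* F) : ↥(Cfsg.GSp m F) →* ↥(Cfsg.GSp m F) := gmap (σ : F →+* F)

theorem fl_mul_cG (σ : F ≃+* F) (g : ↥(Cfsg.GSp m F)) : fl σ * cG g = cG (gm σ g) * fl σ := by
  ext x
  obtain ⟨x, rfl⟩ := pm_surjective x
  show pm (fldS σ (cS g x)) = pm (cS (gm σ g) (fldS σ x))
  congr 1
  symm
  apply cS_eq_of_mul
  show (cS g x).1.map σ * g.1.1.map σ = g.1.1.map σ * x.1.map σ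
  rw [← Matrix.map_mul, ← Matrix.map_mul, cS_mul]

end Cfsg.Agent.Lib.Helper1.PSpAut
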