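import Mathlib
import Cfsg.Agent.Lib.Helper1.PSpAut.Basic

set_option autoImplicit false

/-!
Bridges to the predicates of `Def_LieTypeDatum`, rigidity (`ker cG` = scalars, `fl` injective),
scalars, the embedding of `Sp`, the diagonal elements of `GSp`.
-/

namespace Cfsg.Agent.Lib.Helper1.PSpAut

open Matrix MatrixGroups

variable {m : ℕ} {F : Type*} [Field F]

theorem eq_of_isInduced {g : GL (Fin m ⊕ Fin m) F} (hg : g ∈ Cfsg.GSp m F) {σ : F ≃+* F}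
    {β : Cfsg.PSp m F ≃* Cfsg.PSp m F} (h : Cfsg.IsInducedBySemilinearPSp g σ β) :
    β = cG ⟨g, hg⟩ * fl σ := by
  ext x
  obtain ⟨x, rfl⟩ := pm_surjective x
  exact h x (cS ⟨g, hg⟩ (fldS σ x)) rfl

theorem isInduced_cG_fl (g : ↥(Cfsg.GSp m F)) (σ : F ≃+* F) :
    Cfsg.IsInducedBySemilinearPSp g.1 σ (cG g * fl σ) := by
  intro s s' h
  show pm (cS g (fldS σ s)) = pm s'
  congr 1
  exact Subtype.ext h.symm

theorem eq_fl_of_isStd {σ : F ≃+* F} {β : Cfsg.PSp m F ≃* Cfsg.PSp m F}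
    (h : Cfsg.IsStdFieldAutPSp σ β) : β = fl σ := by
  ext x
  obtain ⟨x, rfl⟩ := pm_surjective x
  exact h x (fldS σ x) rfl

theorem isStd_fl (σ : F ≃+* F) : Cfsg.IsStdFieldAutPSp σ (fl σ : MulAut (Cfsg.PSp m F)) := by
  intro s s' h
  show pm (fldS σ s) = pm s'
  congr 1
  exact Subtype.ext h.symm

theorem fl_refl : (fl (RingEquiv.refl F) : MulAut (Cfsg.PSp m F)) = 1 := map_one fl

theorem inndiag_eq : Cfsg.inndiagPSp m F = (cG : ↥(Cfsg.GSp m F) →* _).range := by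
  apply le_antisymm
  · apply (Subgroup.closure_le _).2
    rintro β ⟨g, hg, h⟩
    refine ⟨⟨g, hg⟩, ?_⟩
    rw [eq_of_isInduced hg h, fl_refl, mul_one]
  · rintro _ ⟨g, rfl⟩
    apply Subgroup.subset_closure
    refine ⟨g.1, g.2, ?_⟩
    have := isInduced_cG_fl g (RingEquiv.refl F)
    rwa [fl_refl, mul_one] at this

theorem fl_conj_cG (σ : F ≃+* F) (a : ↥(Cfsg.GSp m F)) :
    fl σ * cG a * (fl σ)⁻¹ = cG (gm σ a) := by
  rw [fl_mul_cG, mul_assoc, mul_inv_cancel, mul_one]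

theorem normal_of_gamma (h : Cfsg.gammaPSp m F = ⊤) :
    (cG : ↥(Cfsg.GSp m F) →* MulAut (Cfsg.PSp m F)).range.Normal := by
  have h1 : Cfsg.gammaPSp m F ≤
      Subgroup.normalizer ((cG : ↥(Cfsg.GSp m F) →* MulAut (Cfsg.PSp m F)).range : Set _) := by
    apply (Subgroup.closure_le _).2
    rintro β ⟨g, σ, hg, hβ⟩
    rw [eq_of_isInduced hg hβ]
    rw [SetLike.mem_coe, Subgroup.mem_normalizer_iff]
    intro y
    constructor
    · rintro ⟨a, rfl⟩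
      refine ⟨⟨g, hg⟩ * gm σ a * ⟨g, hg⟩⁻¹, ?_⟩
      rw [map_mul, map_mul, ← fl_conj_cG, map_inv]
      group
    · rintro ⟨b, hb⟩
      refine ⟨gm σ⁻¹ (⟨g, hg⟩⁻¹ * b * ⟨g, hg⟩), ?_⟩
      rw [← fl_conj_cG, map_mul, map_mul, hb, map_inv, map_inv]
      group
  rw [h] at h1
  exact Subgroup.normalizer_eq_top_iff.1 (top_le_iff.1 h1)

/-! ### scalars -/

theorem smul_one_mem (a : Fˣ) :
    (GeneralLinearGroup.scalar (Fin m ⊕ Fin m) a : GL (Fin m ⊕ Fin m) F) ∈ Cfsg.GSp m F := by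
  rw [mem_GSp_iff]
  refine ⟨a * a, ?_⟩
  have : (GeneralLinearGroup.scalar (Fin m ⊕ Fin m) a : GL (Fin m ⊕ Fin m) F).1 =
      (a : F) • (1 : Matrix (Fin m ⊕ Fin m) (Fin m ⊕ Fin m) F) := by
    ext i j
    simp [Matrix.one_apply, Matrix.scalar_apply, Matrix.diagonal_apply]
  rw [this]
  simp [smul_smul]

/-- scalar matrices in `GSp` -/
noncomputable def sc (a : F) (ha : a ≠ 0) : ↥(Cfsg.GSp m F) :=
  ⟨GeneralLinearGroup.scalar (Fin m ⊕ Fin m) (Units.mk0 a ha), smul_one_mem _⟩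

theorem sc_val (a : F) (ha : a ≠ 0) :
    (sc a ha : ↥(Cfsg.GSp m F)).1.1 = a • (1 : Matrix (Fin m ⊕ Fin m) (Fin m ⊕ Fin m) F) := by
  ext i j
  simp [sc, Matrix.one_apply, Matrix.scalar_apply, Matrix.diagonal_apply]

theorem cG_eq_one_of_smul {g : ↥(Cfsg.GSp m F)} {a : F}
    (h : g.1.1 = a • (1 : Matrix (Fin m ⊕ Fin m) (Fin m ⊕ Fin m) F)) : cG g = 1 := by
  ext x
  obtain ⟨x, rfl⟩ := pm_surjective x
  rw [cG_pm]
  show pm _ = pm x
  congr 1
  apply cS_eq_of_mul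
  rw [h]
  simp

theorem cG_sc (a : F) (ha : a ≠ 0) : cG (sc a ha : ↥(Cfsg.GSp m F)) = 1 :=
  cG_eq_one_of_smul (sc_val a ha)

theorem mu_sc (hm : 0 < m) (a : F) (ha : a ≠ 0) :
    (mu hm (sc a ha : ↥(Cfsg.GSp m F)) : F) = a * a := by
  have : mu hm (sc a ha : ↥(Cfsg.GSp m F)) = Units.mk0 a ha * Units.mk0 a ha := by
    apply mu_eq
    rw [sc_val]
    simp [smul_smul]
  rw [this]
  rfl

/-! ### rigidity -/

theorem scalar_of_commute_tv (G : Matrix (Fin m ⊕ Fin m) (Fin m ⊕ Fin m) F)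
    (h : ∀ v : Fin m ⊕ Fin m → F,
      G * Cfsg.sympTransvection m v 1 = Cfsg.sympTransvection m v 1 * G) :
    ∃ a : F, G = a • (1 : Matrix (Fin m ⊕ Fin m) (Fin m ⊕ Fin m) F) := by
  have key : ∀ v x, Cfsg.sympForm m F x v • (G *ᵥ v) = Cfsg.sympForm m F (G *ᵥ x) v • v := by
    intro v x
    have h1 := congrArg (fun M => M *ᵥ x) (h v)
    simp only [← Matrix.mulVec_mulVec] at h1
    rw [Cfsg.Agent.Lib.Helper17.sympTransvection_mulVec,
      Cfsg.Agent.Lib.Helper17.sympTransvection_mulVec, Matrix.mulVec_add, Matrix.mulVec_smul,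
      one_mul, one_mul] at h1
    exact add_left_cancel h1
  obtain ⟨c, hc⟩ := LinearMap.exists_eq_smul_id_of_forall_notLinearIndependent
    (f := Matrix.toLin' G) (fun v => by
      by_cases hv : v = 0
      · simp [hv, linearIndependent_fin2]
      · rw [LinearIndependent.pair_iff' hv]
        push Not
        have : ∃ x, Cfsg.sympForm m F x v ≠ 0 := by
          by_contra hcon
          push Not at hcon
          apply hv
          apply Cfsg.Agent.Lib.Helper17.sympForm_left_eq_zero m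
          intro y
          rw [Cfsg.Agent.Lib.Helper17.sympForm_swap, hcon y, neg_zero]
        obtain ⟨x, hx⟩ := this
        refine ⟨(Cfsg.sympForm m F x v)⁻¹ * Cfsg.sympForm m F (G *ᵥ x) v, ?_⟩
        rw [Matrix.toLin'_apply, mul_smul, ← key v x, smul_smul, inv_mul_cancel₀ hx, one_smul])
  refine ⟨c, ?_⟩
  rw [Matrix.ext_iff_mulVec]
  intro x
  have := congrArg (fun f => f x) hc
  simpa [Matrix.toLin'_apply, Matrix.smul_mulVec] using this

/-- a symplectic transvection as an element of `Sp` -/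
def tvS (v : Fin m ⊕ Fin m → F) (c : F) : symplecticGroup (Fin m) F :=
  ⟨Cfsg.sympTransvection m v c, Cfsg.Agent.Lib.Helper17.sympTransvection_mem m v c⟩

theorem isUnit_GL (g : GL (Fin m ⊕ Fin m) F) : IsUnit g.1 := g.isUnit

theorem exists_smul_of_cG_eq_one (hm : 0 < m) {g : ↥(Cfsg.GSp m F)} (h : cG g = 1) :
    ∃ a : F, a ≠ 0 ∧ g.1.1 = a • (1 : Matrix (Fin m ⊕ Fin m) (Fin m ⊕ Fin m) F) := by
  have : Nonempty (Fin m ⊕ Fin m) := ⟨.inl ⟨0, hm⟩⟩
  obtain ⟨a, ha⟩ := scalar_of_commute_tv g.1.1 (fun v => by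
    have h1 : pm (tvS v 1) = pm (cS g (tvS v 1)) := by
      rw [← cG_pm, h]
      rfl
    obtain ⟨ε, hε⟩ := exists_eps_of_pm_eq h1
    have h2 := cS_mul g (tvS v 1)
    rw [hε, Matrix.smul_mul] at h2
    have h3 := Cfsg.Agent.Lib.Helper6.unipotent_trick_eq_one g.1.1 (tvS v 1).1 (isUnit_GL g.1) ε
      h2.symm (Cfsg.Agent.Lib.Helper6.sympTransvection_sub_one_sq m v 1)
    rw [h3, one_smul] at h2
    exact h2.symm)
  refine ⟨a, ?_, ha⟩
  rintro rfl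
  rw [zero_smul] at ha
  have := isUnit_GL g.1
  rw [ha] at this
  exact not_isUnit_zero this

theorem ker_cG (hm : 0 < m) : (cG : ↥(Cfsg.GSp m F) →* _).ker =
    (Cfsg.Geo.scalars (Fin m ⊕ Fin m) F).subgroupOf (Cfsg.GSp m F) := by
  ext g
  rw [MonoidHom.mem_ker, Subgroup.mem_subgroupOf, Cfsg.Geo.mem_scalars_iff]
  constructor
  · intro h
    obtain ⟨a, ha, h1⟩ := exists_smul_of_cG_eq_one hm h
    exact ⟨Units.mk0 a ha, h1⟩
  · rintro ⟨c, hc⟩
    exact cG_eq_one_of_smul hc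

theorem tvS_apply_inr (hm : 0 < m) (c : F) :
    (tvS (Pi.single (Sum.inl ⟨0, hm⟩) 1) c : symplecticGroup (Fin m) F).1
      (Sum.inr ⟨0, hm⟩) (Sum.inr ⟨0, hm⟩) = 1 := by
  simp [tvS, Cfsg.sympTransvection, Matrix.vecMulVec_apply]

theorem tvS_apply_inl (hm : 0 < m) (c : F) :
    (tvS (Pi.single (Sum.inl ⟨0, hm⟩) 1) c : symplecticGroup (Fin m) F).1
      (Sum.inl ⟨0, hm⟩) (Sum.inr ⟨0, hm⟩) = c := by
  simp [tvS, Cfsg.sympTransvection, Matrix.vecMulVec_apply, J]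

theorem fl_injective (hm : 0 < m) :
    Function.Injective (fl : (F ≃+* F) →* MulAut (Cfsg.PSp m F)) := by
  rw [injective_iff_map_eq_one]
  intro σ hσ
  ext c
  have h1 : pm (tvS (Pi.single (Sum.inl ⟨0, hm⟩) 1) c) =
      pm (fldS σ (tvS (Pi.single (Sum.inl ⟨0, hm⟩) 1) c)) := by
    rw [← fl_pm, hσ]
    rfl
  obtain ⟨ε, hε⟩ := exists_eps_of_pm_eq h1
  have h2 := congrFun (congrFun hε (Sum.inr ⟨0, hm⟩)) (Sum.inr ⟨0, hm⟩)
  have h3 := congrFun (congrFun hε (Sum.inl ⟨0, hm⟩)) (Sum.inr ⟨0, hm⟩)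
  rw [fldS_val, Matrix.map_apply, Matrix.smul_apply, tvS_apply_inr, map_one, smul_eq_mul,
    mul_one] at h2
  rw [fldS_val, Matrix.map_apply, Matrix.smul_apply, tvS_apply_inl, ← h2, one_smul] at h3
  exact h3

/-! ### `Sp` inside `GSp` -/

/-- `Sp → GSp` -/
def ofSp (x : symplecticGroup (Fin m) F) : ↥(Cfsg.GSp m F) :=
  ⟨⟨x.1, x⁻¹.1, congrArg Subtype.val (mul_inv_cancel x), congrArg Subtype.val (inv_mul_cancel x)⟩,
    mem_GSp_iff.2 ⟨1, by
      show x.1ᵀ * J (Fin m) F * x.1 = _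
      rw [SymplecticGroup.mem_iff'.1 x.2, Units.val_one, one_smul]⟩⟩

theorem ofSp_val (x : symplecticGroup (Fin m) F) : (ofSp x).1.1 = x.1 := rfl

theorem mu_ofSp (hm : 0 < m) (x : symplecticGroup (Fin m) F) : mu hm (ofSp x) = 1 := by
  apply mu_eq
  rw [ofSp_val, SymplecticGroup.mem_iff'.1 x.2, Units.val_one, one_smul]

theorem cG_ofSp (y : symplecticGroup (Fin m) F) : cG (ofSp y) = MulAut.conj (pm y) := by
  ext x
  obtain ⟨x, rfl⟩ := pm_surjective x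
  rw [cG_pm]
  show pm _ = pm (y * x * y⁻¹)
  congr 1

theorem exists_ofSp_of_mu (hm : 0 < m) (g : ↥(Cfsg.GSp m F)) (h : mu hm g = 1) :
    ∃ x, g = ofSp x := by
  have h1 := mu_spec hm g
  rw [h, Units.val_one, one_smul] at h1
  refine ⟨⟨g.1.1, SymplecticGroup.mem_iff'.2 h1⟩, ?_⟩
  apply Subtype.ext
  apply Units.ext
  rfl

/-! ### the diagonal elements -/

theorem diag_aux (a : F) :
    (fromBlocks (a • (1 : Matrix (Fin m) (Fin m) F)) 0 0 1)ᵀ * J (Fin m) F *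
      fromBlocks (a • (1 : Matrix (Fin m) (Fin m) F)) 0 0 1 = a • J (Fin m) F := by
  simp [J, fromBlocks_transpose, fromBlocks_multiply, fromBlocks_smul]

/-- `diag(a, …, a, 1, …, 1)` -/
noncomputable def dg (a : F) (ha : a ≠ 0) : ↥(Cfsg.GSp m F) :=
  ⟨⟨fromBlocks (a • (1 : Matrix (Fin m) (Fin m) F)) 0 0 1,
      fromBlocks (a⁻¹ • (1 : Matrix (Fin m) (Fin m) F)) 0 0 1,
      by simp [fromBlocks_multiply, smul_smul, ha],
      by simp [fromBlocks_multiply, smul_smul, ha]⟩,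
    mem_GSp_iff.2 ⟨Units.mk0 a ha, diag_aux a⟩⟩

theorem dg_val (a : F) (ha : a ≠ 0) : (dg a ha : ↥(Cfsg.GSp m F)).1.1 =
    fromBlocks (a • (1 : Matrix (Fin m) (Fin m) F)) 0 0 1 := rfl

theorem mu_dg (hm : 0 < m) (a : F) (ha : a ≠ 0) :
    mu hm (dg a ha : ↥(Cfsg.GSp m F)) = Units.mk0 a ha :=
  mu_eq hm _ _ (diag_aux a)

theorem mu_surjective (hm : 0 < m) : Function.Surjective (mu hm : ↥(Cfsg.GSp m F) →* Fˣ) := by
  intro a
  exact ⟨dg a a.ne_zero, by rw [mu_dg]; exact Units.ext rfl⟩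

end Cfsg.Agent.Lib.Helper1.PSpAut
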