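import Mathlib
import Cfsg.Agent.Lib.Helper1.PSpAut.Bridge
import Cfsg.Agent.Lib.Helper18.AutPSL.H90
import Cfsg.Agent.Lib.Helper99.SympIndex

set_option autoImplicit false

/-!
The Lang step for `GSp`: elements of order `r` in the coset of a field automorphism of order `r`
of `PSp_{2m}(q)` are conjugate to it under the image of `GSp`.
-/

namespace Cfsg.Agent.Lib.Helper1.PSpAut

open Matrix MatrixGroups
open Cfsg.Agent.Lib.Helper18.AutPSL (mp mp_apply mp_eq_map mp_one mp_smul nrm nrm_zero nrm_succ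
  nrm_succ' nrm_smul nrmS nrmS_zero nrmS_succ hilbert90 hilbert90_one nrmS_surj)

variable {m : ℕ} {F : Type*} [Field F]

theorem dot_conj {k : Type*} [Field k] (A M B : Matrix (Fin m ⊕ Fin m) (Fin m ⊕ Fin m) k)
    (u v : Fin m ⊕ Fin m → k) :
    (A *ᵥ u) ⬝ᵥ (M *ᵥ (B *ᵥ v)) = u ⬝ᵥ ((Aᵀ * M * B) *ᵥ v) := by
  rw [← Matrix.vecMul_transpose, ← Matrix.dotProduct_mulVec, Matrix.mulVec_mulVec,
    Matrix.mulVec_mulVec, Matrix.mul_assoc]

/-- a non-degenerate alternating matrix is congruent to `J` -/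
theorem exists_congr_J {k : Type*} [Field k] (M : Matrix (Fin m ⊕ Fin m) (Fin m ⊕ Fin m) k)
    (hAlt : ∀ x, x ⬝ᵥ (M *ᵥ x) = 0) (hdet : M.det ≠ 0) :
    ∃ a : Matrix (Fin m ⊕ Fin m) (Fin m ⊕ Fin m) k, a.det ≠ 0 ∧ aᵀ * M * a = J (Fin m) k := by
  have hB : (Matrix.toBilin' M).IsAlt := fun x => by
    rw [Matrix.toBilin'_apply']
    exact hAlt x
  have hnd : Cfsg.Agent.Lib.Helper99.NondegOn (Matrix.toBilin' M) ⊤ := by
    intro v _ hv
    by_contra hcon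
    push Not at hcon
    apply hv
    have h1 : v ᵥ* M = 0 := by
      funext i
      have := hcon (Pi.single i 1) trivial
      rw [Matrix.toBilin'_apply', Matrix.dotProduct_mulVec] at this
      simpa using this
    exact Matrix.eq_zero_of_vecMul_eq_zero hdet h1
  obtain ⟨Φ, hΦ⟩ := Cfsg.Agent.Lib.Helper99.exists_symplectic_coords hB hnd (m := m) (by
    rw [Module.finrank_fintype_fun_eq_card, Fintype.card_sum, Fintype.card_fin]
    ring)
  have ha : (LinearMap.toMatrix' (Φ : (Fin m ⊕ Fin m → k) →ₗ[k] (Fin m ⊕ Fin m → k)))ᵀ * M *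
      LinearMap.toMatrix' (Φ : (Fin m ⊕ Fin m → k) →ₗ[k] (Fin m ⊕ Fin m → k)) = J (Fin m) k := by
    apply eq_of_forall_dot
    intro u v
    have := hΦ u v
    rw [Cfsg.Agent.Lib.Helper99.sympB_apply, Matrix.toBilin'_apply'] at this
    rw [← dot_conj, LinearMap.toMatrix'_mulVec, LinearMap.toMatrix'_mulVec]
    exact this
  refine ⟨_, ?_, ha⟩
  intro h0
  have h1 := congrArg det ha
  rw [det_mul, h0, mul_zero] at h1
  exact (isUnit_det_J (Fin m) k).ne_zero h1.symm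

theorem mp_transpose (σ : F ≃+* F) (M : Matrix (Fin m ⊕ Fin m) (Fin m ⊕ Fin m) F) :
    mp σ Mᵀ = (mp σ M)ᵀ := rfl

theorem mp_J (σ : F ≃+* F) : mp σ (J (Fin m) F) = J (Fin m) F := J_map (σ : F →+* F)

/-- descent of a `σ`-fixed alternating matrix -/
theorem exists_fixed_congr (σ : F ≃+* F) (K : Matrix (Fin m ⊕ Fin m) (Fin m ⊕ Fin m) F)
    (hfix : mp σ K = K) (hAlt : ∀ x, x ⬝ᵥ (K *ᵥ x) = 0) (hdet : K.det ≠ 0) :
    ∃ a : Matrix (Fin m ⊕ Fin m) (Fin m ⊕ Fin m) F,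
      a.det ≠ 0 ∧ mp σ a = a ∧ aᵀ * K * a = J (Fin m) F := by
  let F₀ : Subfield F := RingHom.eqLocusField (σ : F →+* F) (RingHom.id F)
  let j : F₀ →+* F := F₀.subtype
  let M₀ : Matrix (Fin m ⊕ Fin m) (Fin m ⊕ Fin m) F₀ :=
    fun i k => ⟨K i k, congrFun (congrFun hfix i) k⟩
  have hM : M₀.map j = K := rfl
  have hAlt₀ : ∀ x, x ⬝ᵥ (M₀ *ᵥ x) = 0 := by
    intro x
    apply j.injective
    rw [map_zero, RingHom.map_dotProduct, ← hAlt (j ∘ x), ← hM]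
    congr 1
    funext i
    exact (RingHom.map_mulVec j M₀ x i)
  have hdet₀ : M₀.det ≠ 0 := by
    intro h0
    apply hdet
    rw [← hM]
    have := RingHom.map_det j M₀
    rw [h0, map_zero] at this
    exact this.symm
  obtain ⟨a₀, ha₀, ha₁⟩ := exists_congr_J M₀ hAlt₀ hdet₀
  refine ⟨a₀.map j, ?_, ?_, ?_⟩
  · intro h0
    apply ha₀
    apply j.injective
    rw [map_zero, RingHom.map_det]
    exact h0
  · ext i k
    exact (a₀ i k).2
  · rw [← hM, ← transpose_map, ← Matrix.map_mul, ← Matrix.map_mul, ha₁, J_map]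

/-! ### powers -/

/-- partial norms in `GSp` -/
noncomputable def nrmG (σ : F ≃+* F) (g : ↥(Cfsg.GSp m F)) : ℕ → ↥(Cfsg.GSp m F)
  | 0 => 1
  | k + 1 => g * gm σ (nrmG σ g k)

theorem nrmG_val (σ : F ≃+* F) (g : ↥(Cfsg.GSp m F)) (k : ℕ) :
    (nrmG σ g k).1.1 = nrm σ g.1.1 k := by
  induction k with
  | zero => rfl
  | succ k ih =>
    show g.1.1 * (gm σ (nrmG σ g k)).1.1 = _
    rw [gmap_val, ih, nrm_succ]
    rfl

theorem mu_nrmG (hm : 0 < m) (σ : F ≃+* F) (g : ↥(Cfsg.GSp m F)) (k : ℕ) :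
    (mu hm (nrmG σ g k) : F) = nrmS σ (mu hm g : F) k := by
  induction k with
  | zero =>
    show (mu hm (1 : ↥(Cfsg.GSp m F)) : F) = 1
    rw [map_one, Units.val_one]
  | succ k ih =>
    show (mu hm (g * gm σ (nrmG σ g k)) : F) = _
    rw [map_mul, Units.val_mul, mu_gmap, ih, nrmS_succ]
    rfl

theorem pow_cG_fl (g : ↥(Cfsg.GSp m F)) (σ : F ≃+* F) (k : ℕ) :
    (cG g * fl σ) ^ k = cG (nrmG σ g k) * fl (σ ^ k) := by
  induction k with
  | zero => simp [nrmG]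
  | succ k ih =>
    rw [pow_succ', ih, pow_succ', map_mul]
    show _ = cG (g * gm σ (nrmG σ g k)) * _
    rw [map_mul]
    calc cG g * fl σ * (cG (nrmG σ g k) * fl (σ ^ k))
        = cG g * (fl σ * cG (nrmG σ g k)) * fl (σ ^ k) := by simp only [mul_assoc]
      _ = _ := by rw [fl_mul_cG]; simp only [mul_assoc]

theorem eq_of_smul_eq_smul_GL (hm : 0 < m) (g : GL (Fin m ⊕ Fin m) F) {a b : F}
    (h : a • g.1 = b • g.1) : a = b := by
  have h1 := congrArg (fun M => M * g⁻¹.1) h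
  simp only [Matrix.smul_mul, Units.mul_inv] at h1
  have h2 := congrFun (congrFun h1 (Sum.inl ⟨0, hm⟩)) (Sum.inl ⟨0, hm⟩)
  simpa using h2

theorem det_GL_ne_zero (g : GL (Fin m ⊕ Fin m) F) : g.1.det ≠ 0 := by
  have := g.det.ne_zero
  simpa using this

/-- the Lang step -/
theorem exists_GSp_of_nrm (hm : 0 < m) (g : ↥(Cfsg.GSp m F)) (σ : F ≃+* F) (r : ℕ)
    (hr0 : 0 < r) (hr : orderOf σ = r) (hN : nrm σ g.1.1 r = 1) :
    ∃ B : ↥(Cfsg.GSp m F), g * gm σ B = B := by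
  obtain ⟨b, hb, hb2⟩ := hilbert90 σ g.1.1 r hr0 hr hN
  have hc : nrmS σ (mu hm g : F) r = 1 := by
    rw [← mu_nrmG]
    have h1 : nrmG σ g r = 1 := Subtype.ext (Units.ext (by rw [nrmG_val, hN]; rfl))
    rw [h1, map_one, Units.val_one]
  obtain ⟨d, hd0, hd⟩ := hilbert90_one σ (mu hm g : F) r hr0 hr hc
  have hσd : σ d ≠ 0 := by simpa using hd0
  have hK : bᵀ * J (Fin m) F * b = (mu hm g : F) • mp σ (bᵀ * J (Fin m) F * b) := by
    conv_lhs => rw [← hb2]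
    calc (g.1.1 * mp σ b)ᵀ * J (Fin m) F * (g.1.1 * mp σ b)
        = (mp σ b)ᵀ * (g.1.1ᵀ * J (Fin m) F * g.1.1) * mp σ b := by
          simp only [transpose_mul, Matrix.mul_assoc]
      _ = (mu hm g : F) • ((mp σ b)ᵀ * J (Fin m) F * mp σ b) := by
          rw [mu_spec hm, Matrix.mul_smul, Matrix.smul_mul]
      _ = _ := by rw [map_mul, map_mul, mp_transpose, mp_J]
  have hfix : mp σ (d⁻¹ • (bᵀ * J (Fin m) F * b)) = d⁻¹ • (bᵀ * J (Fin m) F * b) := by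
    rw [mp_smul]
    conv_rhs => rw [hK, smul_smul]
    congr 1
    rw [map_inv₀]
    field_simp
    rw [mul_comm]
    exact hd.symm
  obtain ⟨a, ha, haσ, haJ⟩ := exists_fixed_congr σ (d⁻¹ • (bᵀ * J (Fin m) F * b)) hfix
    (by
      intro x
      rw [Matrix.smul_mulVec, dotProduct_smul, ← sympForm_mulVec,
        Cfsg.Agent.Lib.Helper17.sympForm_self, smul_zero])
    (by
      rw [Matrix.det_smul, det_mul, det_mul, det_transpose]
      exact mul_ne_zero (pow_ne_zero _ (inv_ne_zero hd0))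
        (mul_ne_zero (mul_ne_zero hb (isUnit_det_J (Fin m) F).ne_zero) hb))
  have hdet : (b * a).det ≠ 0 := by
    rw [det_mul]
    exact mul_ne_zero hb ha
  have hJ : (b * a)ᵀ * J (Fin m) F * (b * a) = d • J (Fin m) F := by
    conv_rhs => rw [← haJ, Matrix.mul_smul, Matrix.smul_mul, smul_smul, mul_inv_cancel₀ hd0,
      one_smul]
    simp only [transpose_mul, Matrix.mul_assoc]
  refine ⟨⟨GeneralLinearGroup.mkOfDetNeZero (b * a) hdet,
    mem_GSp_iff.2 ⟨Units.mk0 d hd0, hJ⟩⟩, ?_⟩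
  apply Subtype.ext
  apply Units.ext
  show g.1.1 * mp σ (b * a) = b * a
  rw [map_mul, haσ, ← Matrix.mul_assoc, hb2]

theorem field_core [Finite F] (hm : 0 < m) (g : ↥(Cfsg.GSp m F)) (σ : F ≃+* F) (r : ℕ)
    (hr0 : 0 < r) (hr : orderOf σ = r) (h : (cG g * fl σ) ^ r = 1) :
    ∃ b : ↥(Cfsg.GSp m F), cG g * fl σ = cG b * fl σ * (cG b)⁻¹ := by
  have hσ : σ ^ r = 1 := by rw [← hr]; exact pow_orderOf_eq_one σ
  rw [pow_cG_fl, hσ, map_one, mul_one] at h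
  obtain ⟨lam, h0, hl⟩ := exists_smul_of_cG_eq_one hm h
  have hN : nrm σ g.1.1 r = lam • 1 := by rw [← nrmG_val, hl]
  have hfix : σ lam = lam := by
    have h1 := nrm_succ σ g.1.1 r
    rw [nrm_succ', hσ, mp_one, hN, mp_smul, map_one, Matrix.smul_mul, Matrix.one_mul,
      Matrix.mul_smul, Matrix.mul_one] at h1
    exact (eq_of_smul_eq_smul_GL hm g.1 h1).symm
  obtain ⟨μ, hμ0, hμ⟩ := nrmS_surj σ r hr0 hr lam⁻¹ (inv_ne_zero h0) (by rw [map_inv₀, hfix])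
  have hg₁ : (sc μ hμ0 * g).1.1 = μ • g.1.1 := by
    show (sc μ hμ0 : ↥(Cfsg.GSp m F)).1.1 * g.1.1 = _
    rw [sc_val, Matrix.smul_mul, Matrix.one_mul]
  obtain ⟨B, e⟩ := exists_GSp_of_nrm hm (sc μ hμ0 * g) σ r hr0 hr (by
    rw [hg₁, nrm_smul, hμ, hN, smul_smul, inv_mul_cancel₀ h0, one_smul])
  have e2 : cG B = cG g * cG (gm σ B) := by
    conv_lhs => rw [← e]
    rw [map_mul, map_mul, cG_sc, one_mul]
  have e3 := fl_mul_cG σ B
  refine ⟨B, ?_⟩
  calc cG g * fl σ = cG g * (fl σ * cG B) * (cG B)⁻¹ := by group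
    _ = cG g * (cG (gm σ B) * fl σ) * (cG B)⁻¹ := by rw [e3]
    _ = (cG g * cG (gm σ B)) * fl σ * (cG B)⁻¹ := by group
    _ = _ := by rw [← e2]

end Cfsg.Agent.Lib.Helper1.PSpAut
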