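import Mathlib
import Cfsg.Agent.Lib.Helper1.PSpAut.Lang
import Cfsg.Agent.Lib.Helper18.AutPSL.FieldCent

set_option autoImplicit false

/-!
Centralisers of field automorphisms of `PSp_{2m}(q)` in `Inndiag`, and the number of classes.
-/

namespace Cfsg.Agent.Lib.Helper1.PSpAut

open Matrix MatrixGroups
open Cfsg.Agent.Lib.Helper18.AutPSL (mp mp_apply mp_eq_map mp_one mp_smul nrm nrm_zero nrm_succ
  nrm_succ' nrm_smul nrmS nrmS_zero nrmS_succ hilbert90 hilbert90_one nrmS_surj mp_pow_of_smul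
  quoU mem_ker_quoU)

variable {m : ℕ} {F : Type*} [Field F]

theorem mem_comap_cent {s : MulAut (Cfsg.PSp m F)} {g : ↥(Cfsg.GSp m F)} :
    g ∈ (Subgroup.centralizer {s}).comap (cG : ↥(Cfsg.GSp m F) →* _) ↔ cG g * s = s * cG g := by
  rw [Subgroup.mem_comap, Subgroup.mem_centralizer_singleton_iff]

theorem comm_fl_of_fixed (σ : F ≃+* F) (g : ↥(Cfsg.GSp m F)) (h : mp σ g.1.1 = g.1.1) :
    cG g * fl σ = fl σ * cG g := by
  have : gm σ g = g := Subtype.ext (Units.ext h)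
  rw [fl_mul_cG, this]

theorem exists_fixed_of_comm (hm : 0 < m) (g : ↥(Cfsg.GSp m F)) (σ : F ≃+* F) (r : ℕ)
    (hr0 : 0 < r) (hr : orderOf σ = r) (h : cG g * fl σ = fl σ * cG g) :
    ∃ c : F, c ≠ 0 ∧ mp σ (c • g.1.1) = c • g.1.1 := by
  have hσ : σ ^ r = 1 := by rw [← hr]; exact pow_orderOf_eq_one σ
  rw [fl_mul_cG] at h
  have h1 : cG (g⁻¹ * gm σ g) = 1 := by
    rw [map_mul, map_inv, ← mul_right_cancel h, inv_mul_cancel]
  obtain ⟨lam, h0, hl⟩ := exists_smul_of_cG_eq_one hm h1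
  have h2 : mp σ g.1.1 = lam • g.1.1 := by
    have h3 : g.1⁻¹.1 * mp σ g.1.1 = lam • 1 := hl
    calc mp σ g.1.1 = g.1.1 * (g.1⁻¹.1 * mp σ g.1.1) := by
          rw [← Matrix.mul_assoc, Units.mul_inv, Matrix.one_mul]
      _ = _ := by rw [h3, Matrix.mul_smul, Matrix.mul_one]
  have h5 := mp_pow_of_smul σ g.1.1 lam h2 r
  rw [hσ, mp_one] at h5
  have h6 : nrmS σ lam r = 1 :=
    (eq_of_smul_eq_smul_GL hm g.1 (by rw [one_smul]; exact h5)).symm
  obtain ⟨c, hc0, hc⟩ := hilbert90_one σ lam r hr0 hr h6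
  refine ⟨c, hc0, ?_⟩
  rw [mp_smul, h2, smul_smul, mul_comm, hc]

theorem sc_mul_val (c : F) (hc : c ≠ 0) (g : ↥(Cfsg.GSp m F)) :
    (sc c hc * g).1.1 = c • g.1.1 := by
  show (sc c hc : ↥(Cfsg.GSp m F)).1.1 * g.1.1 = _
  rw [sc_val, Matrix.smul_mul, Matrix.one_mul]

theorem sigma_mu_of_fixed (hm : 0 < m) (σ : F ≃+* F) (g : ↥(Cfsg.GSp m F))
    (h : mp σ g.1.1 = g.1.1) : σ (mu hm g : F) = (mu hm g : F) := by
  have : gm σ g = g := Subtype.ext (Units.ext h)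
  have h1 := mu_gmap hm (σ : F →+* F) g
  rw [this] at h1
  exact h1.symm

theorem mp_dg (σ : F ≃+* F) (a : F) (ha : a ≠ 0) (h : σ a = a) :
    mp σ (dg a ha : ↥(Cfsg.GSp m F)).1.1 = (dg a ha : ↥(Cfsg.GSp m F)).1.1 := by
  rw [dg_val]
  ext (i | i) (k | k) <;> simp [mp_apply, Matrix.one_apply, apply_ite σ, h]

theorem map_mu_cent_fl (hm : 0 < m) (σ : F ≃+* F) (r : ℕ) (hr0 : 0 < r) (hr : orderOf σ = r) :
    ((Subgroup.centralizer {fl σ}).comap (cG : ↥(Cfsg.GSp m F) →* _)).map (mu hm) =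
      (powMonoidHom 2 : Fˣ →* Fˣ).range ⊔ (quoU σ).ker := by
  apply le_antisymm
  · rintro _ ⟨g, hg, rfl⟩
    obtain ⟨c, hc0, hc⟩ := exists_fixed_of_comm hm g σ r hr0 hr (mem_comap_cent.1 hg)
    rw [Subgroup.mem_sup]
    refine ⟨(Units.mk0 c hc0)⁻¹ ^ 2, ⟨_, rfl⟩, mu hm (sc c hc0 * g), ?_, ?_⟩
    · rw [mem_ker_quoU]
      apply sigma_mu_of_fixed
      rw [sc_mul_val]
      exact hc
    · rw [map_mul]
      have : mu hm (sc c hc0 : ↥(Cfsg.GSp m F)) = Units.mk0 c hc0 ^ 2 := by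
        apply Units.ext
        rw [mu_sc, pow_two]
        rfl
      rw [this, ← mul_assoc, ← mul_pow, inv_mul_cancel, one_pow, one_mul]
  · apply sup_le
    · rintro _ ⟨a, rfl⟩
      refine ⟨sc a a.ne_zero, mem_comap_cent.2 (by rw [cG_sc, one_mul, mul_one]), ?_⟩
      apply Units.ext
      rw [mu_sc, powMonoidHom_apply, pow_two]
      rfl
    · intro a ha
      rw [mem_ker_quoU] at ha
      refine ⟨dg a a.ne_zero, mem_comap_cent.2 (comm_fl_of_fixed σ _ (mp_dg σ _ _ ha)), ?_⟩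
      rw [mu_dg]
      exact Units.ext rfl

/-! ### inner automorphisms -/

/-- the multiplier modulo squares -/
noncomputable def dq (hm : 0 < m) :
    ↥(Cfsg.GSp m F) →* Fˣ ⧸ (powMonoidHom 2 : Fˣ →* Fˣ).range :=
  (QuotientGroup.mk' _).comp (mu hm)

theorem dq_surjective (hm : 0 < m) : Function.Surjective (dq hm : ↥(Cfsg.GSp m F) →* _) :=
  (QuotientGroup.mk'_surjective _).comp (mu_surjective hm)

theorem inn_eq (hm : 0 < m) : Cfsg.Inn (Cfsg.PSp m F) = (dq hm).ker.map cG := by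
  ext β
  constructor
  · rintro ⟨x, rfl⟩
    obtain ⟨x, rfl⟩ := pm_surjective x
    refine ⟨ofSp x, ?_, cG_ofSp x⟩
    show dq hm (ofSp x) = 1
    show QuotientGroup.mk' _ (mu hm (ofSp x)) = 1
    rw [mu_ofSp, map_one]
  · rintro ⟨g, hg, rfl⟩
    have hg' : QuotientGroup.mk' (powMonoidHom 2 : Fˣ →* Fˣ).range (mu hm g) = 1 := hg
    rw [QuotientGroup.mk'_apply, QuotientGroup.eq_one_iff] at hg'
    obtain ⟨a, ha⟩ := hg'
    rw [powMonoidHom_apply] at ha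
    have h1 : mu hm (sc ((a⁻¹ : Fˣ) : F) (a⁻¹).ne_zero * g) = 1 := by
      rw [map_mul, ← ha]
      have : mu hm (sc ((a⁻¹ : Fˣ) : F) (a⁻¹).ne_zero : ↥(Cfsg.GSp m F)) = a⁻¹ ^ 2 := by
        apply Units.ext
        rw [mu_sc, pow_two]
        rfl
      rw [this, ← mul_pow, inv_mul_cancel, one_pow]
    obtain ⟨y, hy⟩ := exists_ofSp_of_mu hm _ h1
    have h2 : cG g = cG (ofSp y) := by
      rw [← hy, map_mul, cG_sc, one_mul]
    rw [h2, cG_ofSp]
    exact ⟨_, rfl⟩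

theorem range_eq_inn_of_char_two [Finite F] (hm : 0 < m) (h2 : ringChar F = 2) :
    (cG : ↥(Cfsg.GSp m F) →* _).range = Cfsg.Inn (Cfsg.PSp m F) := by
  have : Fintype F := Fintype.ofFinite F
  rw [inn_eq hm, MonoidHom.range_eq_map]
  congr 1
  symm
  rw [eq_top_iff]
  intro g _
  show QuotientGroup.mk' (powMonoidHom 2 : Fˣ →* Fˣ).range (mu hm g) = 1
  rw [QuotientGroup.mk'_apply, QuotientGroup.eq_one_iff]
  obtain ⟨a, ha⟩ := FiniteField.isSquare_of_char_two h2 (mu hm g : F)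
  have ha0 : a ≠ 0 := by
    rintro rfl
    rw [mul_zero] at ha
    exact (mu hm g).ne_zero ha
  refine ⟨Units.mk0 a ha0, ?_⟩
  apply Units.ext
  rw [powMonoidHom_apply, pow_two, ha]
  rfl

/-! ### the subfield subgroup -/

variable {F₀ : Type*} [Field F₀]

/-- `GSp_{2m}(F₀) → Aut(PSp_{2m}(F))` -/
noncomputable def Th (j : F₀ →+* F) : ↥(Cfsg.GSp m F₀) →* MulAut (Cfsg.PSp m F) :=
  cG.comp (gmap j)

theorem Th_apply (j : F₀ →+* F) (g : ↥(Cfsg.GSp m F₀)) : Th j g = cG (gmap j g) := rfl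

theorem ker_Th (hm : 0 < m) (j : F₀ →+* F) : (Th j : ↥(Cfsg.GSp m F₀) →* _).ker =
    (Cfsg.Geo.scalars (Fin m ⊕ Fin m) F₀).subgroupOf (Cfsg.GSp m F₀) := by
  ext g
  rw [MonoidHom.mem_ker, Subgroup.mem_subgroupOf, Cfsg.Geo.mem_scalars_iff, Th_apply]
  constructor
  · intro h
    obtain ⟨a, ha0, ha⟩ := exists_smul_of_cG_eq_one hm h
    rw [gmap_val] at ha
    have h3 := congrFun (congrFun ha (Sum.inl ⟨0, hm⟩)) (Sum.inl ⟨0, hm⟩)
    rw [Matrix.map_apply, Matrix.smul_apply, Matrix.one_apply_eq, smul_eq_mul, mul_one] at h3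
    have h0 : g.1.1 (Sum.inl ⟨0, hm⟩) (Sum.inl ⟨0, hm⟩) ≠ 0 := by
      intro h0
      rw [h0, map_zero] at h3
      exact ha0 h3.symm
    refine ⟨Units.mk0 _ h0, ?_⟩
    ext i k
    have h2 := congrFun (congrFun ha i) k
    rw [Matrix.map_apply, Matrix.smul_apply] at h2
    rw [Matrix.smul_apply, Units.val_mk0]
    by_cases hik : i = k
    · subst hik
      rw [Matrix.one_apply_eq, smul_eq_mul, mul_one] at h2 ⊢
      exact j.injective (by rw [h2, h3])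
    · rw [Matrix.one_apply_ne hik, smul_zero] at h2 ⊢
      exact j.injective (by rw [h2, map_zero])
  · rintro ⟨c, hc⟩
    apply cG_eq_one_of_smul (a := j c)
    rw [gmap_val, hc]
    ext i k
    by_cases hik : i = k
    · subst hik
      simp
    · simp [hik]

theorem range_Th (hm : 0 < m) (j : F₀ →+* F) (σ : F ≃+* F)
    (hj : ∀ x, σ x = x ↔ x ∈ Set.range j) (r : ℕ) (hr0 : 0 < r) (hr : orderOf σ = r) :
    (Th j : ↥(Cfsg.GSp m F₀) →* _).range =
      (cG : ↥(Cfsg.GSp m F) →* _).range ⊓ Subgroup.centralizer {fl σ} := by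
  ext y
  constructor
  · rintro ⟨g, rfl⟩
    refine ⟨⟨_, rfl⟩, ?_⟩
    apply Subgroup.mem_centralizer_singleton_iff.2
    apply comm_fl_of_fixed
    ext i k
    exact (hj _).2 ⟨g.1.1 i k, rfl⟩
  · rintro ⟨⟨g, rfl⟩, h2⟩
    obtain ⟨c, hc0, hc⟩ := exists_fixed_of_comm hm g σ r hr0 hr
      (Subgroup.mem_centralizer_singleton_iff.1 h2)
    have h3 : ∀ i k, ∃ y, j y = c * g.1.1 i k := fun i k =>
      (hj _).1 (congrFun (congrFun hc i) k)
    choose M₀ hM₀ using h3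
    have hM : (Matrix.of M₀).map j = (sc c hc0 * g).1.1 := by
      rw [sc_mul_val]
      ext i k
      exact hM₀ i k
    have hdet : (Matrix.of M₀).det ≠ 0 := by
      intro h0
      have h4 := RingHom.map_det j (Matrix.of M₀)
      rw [h0, map_zero] at h4
      apply det_GL_ne_zero (sc c hc0 * g).1
      rw [← hM]
      exact h4.symm
    have hfix : σ (mu hm (sc c hc0 * g) : F) = (mu hm (sc c hc0 * g) : F) := by
      apply sigma_mu_of_fixed
      rw [sc_mul_val]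
      exact hc
    obtain ⟨e₀, he₀⟩ := (hj _).1 hfix
    have he₀0 : e₀ ≠ 0 := by
      rintro rfl
      rw [map_zero] at he₀
      exact (mu hm (sc c hc0 * g)).ne_zero he₀.symm
    have hJ : (Matrix.of M₀)ᵀ * J (Fin m) F₀ * Matrix.of M₀ = e₀ • J (Fin m) F₀ := by
      have hinj : Function.Injective
          (fun M : Matrix (Fin m ⊕ Fin m) (Fin m ⊕ Fin m) F₀ => M.map j) :=
        Matrix.map_injective j.injective
      apply hinj
      show ((Matrix.of M₀)ᵀ * J (Fin m) F₀ * Matrix.of M₀).map j = (e₀ • J (Fin m) F₀).map j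
      rw [Matrix.map_mul, Matrix.map_mul, transpose_map, hM, J_map, mu_spec hm, ← he₀]
      ext i k
      simp [J_map_apply]
    refine ⟨⟨GeneralLinearGroup.mkOfDetNeZero (Matrix.of M₀) hdet,
      mem_GSp_iff.2 ⟨Units.mk0 e₀ he₀0, hJ⟩⟩, ?_⟩
    have e : gmap j ⟨GeneralLinearGroup.mkOfDetNeZero (Matrix.of M₀) hdet,
        mem_GSp_iff.2 ⟨Units.mk0 e₀ he₀0, hJ⟩⟩ = sc c hc0 * g := by
      apply Subtype.ext
      apply Units.ext
      exact hM
    rw [Th_apply, e, map_mul, cG_sc, one_mul]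

/-! ### arithmetic -/

theorem geom_mod_two_odd {q : ℕ} (hq : q % 2 = 1) (r : ℕ) :
    (∑ i ∈ Finset.range r, q ^ i) % 2 = r % 2 := by
  induction r with
  | zero => simp
  | succ r ih =>
    rw [Finset.sum_range_succ, Nat.add_mod, ih, Nat.pow_mod, hq, one_pow]
    omega

theorem geom_mod_two_even {q : ℕ} (hq : q % 2 = 0) (r : ℕ) :
    (∑ i ∈ Finset.range (r + 1), q ^ i) % 2 = 1 := by
  induction r with
  | zero => simp
  | succ r ih =>
    rw [Finset.sum_range_succ, Nat.add_mod, ih, Nat.pow_mod, hq, zero_pow (Nat.succ_ne_zero r)]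
    rfl

theorem gcd_two_eq (a b : ℕ) (h : a % 2 = b % 2) : Nat.gcd 2 a = Nat.gcd 2 b := by
  rw [Nat.gcd_rec 2 a, Nat.gcd_rec 2 b, h]

theorem gcd_arith {p f r : ℕ} (hp : p.Prime) (hr : 0 < r) (hrf : r ∣ f) (hf : 1 ≤ f) :
    Nat.gcd 2 ((p ^ f - 1) / (p ^ (f / r) - 1)) = Nat.gcd (Nat.gcd 2 (p ^ f - 1)) r := by
  obtain ⟨k, rfl⟩ := hrf
  have hk : 0 < k := by
    rcases Nat.eq_zero_or_pos k with rfl | h
    · simp at hf
    · exact h
  rw [Nat.mul_div_cancel_left _ hr, mul_comm r k, pow_mul]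
  have hq2 : 2 ≤ p ^ k := le_trans hp.two_le (Nat.le_self_pow hk.ne' p)
  rw [← Nat.geomSum_eq hq2]
  have hpos : 1 ≤ (p ^ k) ^ r := Nat.one_le_pow _ _ (by omega)
  rcases Nat.mod_two_eq_zero_or_one (p ^ k) with h0 | h1
  · obtain ⟨r', rfl⟩ : ∃ r', r = r' + 1 := ⟨r - 1, by omega⟩
    have e1 : Nat.gcd 2 (∑ i ∈ Finset.range (r' + 1), (p ^ k) ^ i) = 1 := by
      rw [gcd_two_eq _ 1 (by rw [geom_mod_two_even h0])]
      rfl
    have e2 : Nat.gcd 2 ((p ^ k) ^ (r' + 1) - 1) = 1 := by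
      have h3 : ((p ^ k) ^ (r' + 1)) % 2 = 0 := by
        rw [Nat.pow_mod, h0, zero_pow (Nat.succ_ne_zero r')]
        rfl
      rw [gcd_two_eq _ 1 (by omega)]
      rfl
    rw [e1, e2, Nat.gcd_one_left]
  · have e2 : Nat.gcd 2 ((p ^ k) ^ r - 1) = 2 := by
      have h3 : ((p ^ k) ^ r) % 2 = 1 := by
        rw [Nat.pow_mod, h1, one_pow]
        rfl
      rw [gcd_two_eq _ 0 (by omega)]
      rfl
    rw [e2]
    exact gcd_two_eq _ _ (geom_mod_two_odd h1 r)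

end Cfsg.Agent.Lib.Helper1.PSpAut
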