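import Mathlib
import Cfsg.Agent.Lib.Helper1.PSpAut.Cent

set_option autoImplicit false

/-!
Field automorphisms of prime order of `PSp_{2m}(q)`: conjugacy in the coset, centraliser in
`Inndiag`, number of classes; everything under the hypothesis that `Inndiag` is normal in the
full automorphism group.
-/

namespace Cfsg.Agent.Lib.Helper1.PSpAut

open Matrix MatrixGroups
open Cfsg.Agent.Lib.Helper18.AutPSL (quoU mem_ker_quoU splitClassCount_eq index_sup_of_card
  card_ker_quoU exists_subfield_emb)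

section Generic

variable {X : Type*} [Group X]

theorem isConjUnder_conj (D : Subgroup X) (hD : D.Normal) (α x y : X) :
    Cfsg.IsConjUnder D (α * x * α⁻¹) (α * y * α⁻¹) ↔ Cfsg.IsConjUnder D x y := by
  constructor
  · rintro ⟨h, hh, e⟩
    refine ⟨α⁻¹ * h * α, by simpa using hD.conj_mem h hh α⁻¹, ?_⟩
    have : y = α⁻¹ * (α * y * α⁻¹) * α := by group
    rw [this, e]
    group
  · rintro ⟨h, hh, rfl⟩
    exact ⟨α * h * α⁻¹, hD.conj_mem h hh α, by group⟩

theorem splitClassCount_conj_aut (D K : Subgroup X) (hD : D.Normal) (hK : K.Normal) (α x : X) :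
    Cfsg.splitClassCount D K (α * x * α⁻¹) = Cfsg.splitClassCount D K x := by
  unfold Cfsg.splitClassCount
  symm
  apply Nat.card_congr
  let e : {y : X // Cfsg.IsConjUnder D x y} ≃ {y : X // Cfsg.IsConjUnder D (α * x * α⁻¹) y} :=
    { toFun := fun y => ⟨α * y.1 * α⁻¹, (isConjUnder_conj D hD α x y.1).2 y.2⟩
      invFun := fun y => ⟨α⁻¹ * y.1 * α, (isConjUnder_conj D hD α x _).1 (by
          have : α * (α⁻¹ * y.1 * α) * α⁻¹ = y.1 := by group
          rw [this]
          exact y.2)⟩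
      left_inv := fun y => Subtype.ext (by
        show α⁻¹ * (α * y.1 * α⁻¹) * α = y.1
        group)
      right_inv := fun y => Subtype.ext (by
        show α * (α⁻¹ * y.1 * α) * α⁻¹ = y.1
        group) }
  exact Quot.congr e (fun a b => (isConjUnder_conj K hK α a.1 b.1).symm)

theorem cent_equiv_conj (D : Subgroup X) (hD : D.Normal) (α x : X) :
    Nonempty (↥(D ⊓ Subgroup.centralizer {x}) ≃* ↥(D ⊓ Subgroup.centralizer {α * x * α⁻¹})) := by
  have h : (D ⊓ Subgroup.centralizer {x}).map ((MulAut.conj α : X ≃* X) : X →* X) =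
      D ⊓ Subgroup.centralizer {α * x * α⁻¹} := by
    ext y
    constructor
    · rintro ⟨z, ⟨hz1, hz2⟩, rfl⟩
      have hz3 := Subgroup.mem_centralizer_singleton_iff.1 hz2
      refine ⟨hD.conj_mem z hz1 α, ?_⟩
      apply Subgroup.mem_centralizer_singleton_iff.2
      show α * z * α⁻¹ * (α * x * α⁻¹) = α * x * α⁻¹ * (α * z * α⁻¹)
      calc α * z * α⁻¹ * (α * x * α⁻¹) = α * (z * x) * α⁻¹ := by group
        _ = α * (x * z) * α⁻¹ := by rw [hz3]
        _ = _ := by group
    · rintro ⟨hy1, hy2⟩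
      have hy3 := Subgroup.mem_centralizer_singleton_iff.1 hy2
      refine ⟨α⁻¹ * y * α, ⟨by simpa using hD.conj_mem y hy1 α⁻¹, ?_⟩, ?_⟩
      · apply Subgroup.mem_centralizer_singleton_iff.2
        calc α⁻¹ * y * α * x = α⁻¹ * (y * (α * x * α⁻¹)) * α := by group
          _ = α⁻¹ * ((α * x * α⁻¹) * y) * α := by rw [hy3]
          _ = _ := by group
      · show α * (α⁻¹ * y * α) * α⁻¹ = y
        group
  exact ⟨((MulAut.conj α : X ≃* X).subgroupMap _).trans (MulEquiv.subgroupCongr h)⟩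

theorem orderOf_conj_eq (a x : X) : orderOf (a * x * a⁻¹) = orderOf x := by
  have := (MulAut.conj a).orderOf_eq x
  rwa [MulAut.conj_apply] at this

end Generic

variable {m : ℕ} {F : Type*} [Field F]

theorem coset_conj [Finite F] (hm : 0 < m)
    (hN : (cG : ↥(Cfsg.GSp m F) →* MulAut (Cfsg.PSp m F)).range.Normal)
    (x δ : MulAut (Cfsg.PSp m F)) (hx : Cfsg.IsFieldAutClassPSp x) {r : ℕ} (hr : 0 < r)
    (hxr : orderOf x = r) (hδ : δ ∈ Cfsg.inndiagPSp m F) :
    orderOf (δ * x) = r ↔ Cfsg.IsConjUnder (Cfsg.inndiagPSp m F) x (δ * x) := by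
  rw [inndiag_eq] at hδ ⊢
  obtain ⟨α, σ, hσ, h⟩ := hx
  have e : α * x * α⁻¹ = fl σ := eq_fl_of_isStd h
  constructor
  swap
  · rintro ⟨h, -, e⟩
    rw [e, ← hxr]
    exact orderOf_conj_eq h x
  · intro ho
    have hσr : orderOf σ = r := by
      rw [← orderOf_injective _ (fl_injective (F := F) hm), ← e, orderOf_conj_eq, hxr]
    obtain ⟨d, hd⟩ := hN.conj_mem δ hδ α
    have e2 : cG d * fl σ = α * (δ * x) * α⁻¹ := by
      rw [hd, ← e]
      group
    obtain ⟨b, hb⟩ := field_core hm d σ r hr hσr (by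
      rw [e2, conj_pow, ← ho, pow_orderOf_eq_one]
      group)
    rw [← isConjUnder_conj _ hN α, e, ← e2]
    exact ⟨cG b, ⟨b, rfl⟩, hb⟩

theorem field_cent [Fintype F] {p f : ℕ} [Fact p.Prime] (hF : Fintype.card F = p ^ f)
    (hf : 1 ≤ f) (hm : 0 < m)
    (hN : (cG : ↥(Cfsg.GSp m F) →* MulAut (Cfsg.PSp m F)).range.Normal)
    (x : MulAut (Cfsg.PSp m F)) (hx : Cfsg.IsFieldAutClassPSp x) {r : ℕ} (hr : r.Prime)
    (hxr : orderOf x = r) (F₀ : Type*) [Field F₀] [Fintype F₀]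
    (hF₀ : Fintype.card F₀ = p ^ (f / r)) :
    r ∣ f ∧ Nonempty (↥(Cfsg.inndiagPSp m F ⊓ Subgroup.centralizer {x}) ≃* Cfsg.PGSp m F₀) ∧
      Cfsg.splitClassCount (Cfsg.inndiagPSp m F) (Cfsg.Inn (Cfsg.PSp m F)) x =
        Nat.gcd (Nat.gcd 2 (p ^ f - 1)) r := by
  classical
  obtain ⟨α, σ, hσ, h⟩ := hx
  have e : α * x * α⁻¹ = fl σ := eq_fl_of_isStd h
  have hσr : orderOf σ = r := by
    rw [← orderOf_injective _ (fl_injective (F := F) hm), ← e, orderOf_conj_eq, hxr]
  obtain ⟨hdvd, hemb⟩ := exists_subfield_emb hF σ hσr hr.pos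
  obtain ⟨j, hj⟩ := hemb F₀ hF₀
  refine ⟨hdvd, ?_, ?_⟩
  · rw [inndiag_eq]
    obtain ⟨e1⟩ := cent_equiv_conj (cG : ↥(Cfsg.GSp m F) →* MulAut (Cfsg.PSp m F)).range hN α x
    rw [e] at e1
    have hrg := range_Th hm j σ hj r hr.pos hσr
    exact ⟨e1.trans ((MulEquiv.subgroupCongr hrg.symm).trans
      ((QuotientGroup.quotientKerEquivRange (Th j)).symm.trans
        (QuotientGroup.quotientMulEquivOfEq (ker_Th hm j))))⟩
  · rw [inndiag_eq, ← splitClassCount_conj_aut _ _ hN (Cfsg.innNormal _) α x, e, inn_eq hm,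
      splitClassCount_eq cG (dq hm) (dq_surjective hm)]
    have h1 : ((Subgroup.centralizer {fl σ}).comap (cG : ↥(Cfsg.GSp m F) →* _)).map (dq hm) =
        (((Subgroup.centralizer {fl σ}).comap (cG : ↥(Cfsg.GSp m F) →* _)).map (mu hm)).map
          (QuotientGroup.mk' (powMonoidHom 2 : Fˣ →* Fˣ).range) :=
      (Subgroup.map_map _ _ _).symm
    rw [h1, map_mu_cent_fl hm σ r hr.pos hσr, Subgroup.index_map, QuotientGroup.ker_mk',
      MonoidHom.range_eq_top.2 (QuotientGroup.mk'_surjective _), Subgroup.index_top, mul_one]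
    have h2 : (powMonoidHom 2 : Fˣ →* Fˣ).range ⊔ (quoU σ).ker ⊔ (powMonoidHom 2 : Fˣ →* Fˣ).range =
        (powMonoidHom 2 : Fˣ →* Fˣ).range ⊔ (quoU σ).ker := by
      rw [sup_comm, ← sup_assoc, sup_idem]
    rw [h2, ← gcd_arith (Fact.out : p.Prime) hr.pos hdvd hf]
    apply index_sup_of_card _ (p ^ (f / r) - 1)
    · rw [card_ker_quoU j σ hj, hF₀]
    · rw [Nat.card_eq_fintype_card, Fintype.card_units, hF]
      symm
      apply Nat.mul_div_cancel'
      have := Subgroup.card_subgroup_dvd_card (quoU σ).ker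
      rwa [card_ker_quoU j σ hj, hF₀, Nat.card_eq_fintype_card, Fintype.card_units, hF] at this

/-- normality of `Inndiag`, given the hub in odd characteristic -/
theorem normal_range [Finite F] (hm : 0 < m)
    (hub : ringChar F ≠ 2 → Cfsg.gammaPSp m F = ⊤) :
    (cG : ↥(Cfsg.GSp m F) →* MulAut (Cfsg.PSp m F)).range.Normal := by
  by_cases h2 : ringChar F = 2
  · rw [range_eq_inn_of_char_two hm h2]
    exact Cfsg.innNormal _
  · exact normal_of_gamma (hub h2)

end Cfsg.Agent.Lib.Helper1.PSpAut
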