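import Mathlib
import Cfsg.Agent.Lib.Helper1.PSpAut.Main
import Cfsg.Agent.Lib.Helper18.AutPSp.Gen2
import Cfsg.Agent.Lib.Helper7.SpSimple

set_option autoImplicit false
set_option linter.unusedSectionVars false
set_option linter.unusedVariables false

/-!
Rigidity lemmas for `PSp_{2m}(F)`: automorphisms fixing the rational transvections.
-/

namespace Cfsg.Agent.Lib.Helper1.PSpAut

open Matrix
open Cfsg.Agent.Lib.Helper18.AutPSp (V Sp B ac tv eb fb ac_tv tv_conj tv_pow_char eq_of_pm_eq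
  exists_B_eq_one mem_center_of_scalar tv_inj_right eb_ne_zero)

variable {m : ℕ} {F : Type*} [Field F]

/-- vectors with entries `0` and `1` -/
def zo (b : Fin m ⊕ Fin m → Bool) : V m F := fun i => if b i then 1 else 0

theorem map_zo {K : Type*} [Field K] (j : K →+* F) (b : Fin m ⊕ Fin m → Bool) :
    (fun i => j (zo b i)) = (zo b : V m F) := by
  funext i
  by_cases h : b i <;> simp [zo, h]

theorem zo_single (i : Fin m ⊕ Fin m) : (zo (fun k => decide (k = i)) : V m F) = Pi.single i 1 := by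
  funext k
  by_cases h : k = i
  · subst h; simp [zo]
  · simp [zo, h]

theorem zo_pair {i k : Fin m ⊕ Fin m} (hik : i ≠ k) :
    (zo (fun l => decide (l = i ∨ l = k)) : V m F) = Pi.single i 1 + Pi.single k 1 := by
  funext l
  by_cases h : l = i
  · subst h; simp [zo, hik]
  · by_cases h' : l = k
    · subst h'; simp [zo, h]
    · simp [zo, h, h']

theorem eigen_of_commute_tv (G : Matrix (Fin m ⊕ Fin m) (Fin m ⊕ Fin m) F) (v : V m F) (hv : v ≠ 0)
    (h : G * (tv v 1).1 = (tv v 1).1 * G) : ∃ l : F, G *ᵥ v = l • v := by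
  obtain ⟨x, hx⟩ := exists_B_eq_one hv
  have h1 := congrArg (fun M => M *ᵥ x) h
  simp only [← Matrix.mulVec_mulVec] at h1
  have e1 : (tv v 1).1 *ᵥ x = x + (1 * B x v) • v := ac_tv v 1 x
  have e2 : (tv v 1).1 *ᵥ (G *ᵥ x) = G *ᵥ x + (1 * B (G *ᵥ x) v) • v := ac_tv v 1 _
  rw [e1, e2, Matrix.mulVec_add, Matrix.mulVec_smul, hx, one_mul, one_mul, one_smul] at h1
  exact ⟨_, add_left_cancel h1⟩

theorem scalar_of_commute_zo (hm : 0 < m) (G : Matrix (Fin m ⊕ Fin m) (Fin m ⊕ Fin m) F)
    (h : ∀ b : Fin m ⊕ Fin m → Bool, G * (tv (zo b) 1).1 = (tv (zo b) 1).1 * G) :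
    ∃ a : F, G = a • (1 : Matrix (Fin m ⊕ Fin m) (Fin m ⊕ Fin m) F) := by
  have hs : ∀ i : Fin m ⊕ Fin m, (Pi.single i 1 : V m F) ≠ 0 := by
    intro i h0
    have := congrFun h0 i
    simp at this
  have h1 : ∀ i : Fin m ⊕ Fin m, ∃ l : F, G *ᵥ (Pi.single i 1) = l • (Pi.single i 1 : V m F) := by
    intro i
    apply eigen_of_commute_tv G _ (hs i)
    rw [← zo_single]
    exact h _
  choose lam hlam using h1
  have hcol : ∀ i k, G k i = lam i * (if k = i then 1 else 0) := by
    intro i k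
    have := congrFun (hlam i) k
    rw [Matrix.mulVec_single_one] at this
    simpa [Pi.single_apply] using this
  have heq : ∀ i k, lam i = lam k := by
    intro i k
    by_cases hik : i = k
    · rw [hik]
    have hne : (Pi.single i 1 + Pi.single k 1 : V m F) ≠ 0 := by
      intro h0
      have := congrFun h0 i
      simp [hik] at this
    obtain ⟨l, hl⟩ := eigen_of_commute_tv G _ hne (by rw [← zo_pair hik]; exact h _)
    rw [Matrix.mulVec_add, hlam, hlam] at hl
    have e1 := congrFun hl i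
    have e2 := congrFun hl k
    simp [hik, Ne.symm hik] at e1 e2
    rw [e1, e2]
  refine ⟨lam (Sum.inl ⟨0, hm⟩), ?_⟩
  ext k i
  rw [hcol, heq i (Sum.inl ⟨0, hm⟩), Matrix.smul_apply, Matrix.one_apply, smul_eq_mul]

/-! ### base change of transvections -/

theorem sympForm_map {K : Type*} [Field K] (j : K →+* F) (x y : V m K) :
    B (fun i => j (x i)) (fun i => j (y i)) = j (B x y) := by
  simp only [B, Cfsg.sympForm, dotProduct, Matrix.mulVec, map_sum, map_mul, J_map_apply]

theorem spMap_ac {K : Type*} [Field K] (j : K →+* F) (c : Sp m K) (x : V m K) :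
    spMap j c ∙ (fun i => j (x i)) = fun i => j ((c ∙ x) i) := by
  funext i
  exact (RingHom.map_mulVec j c.1 x i).symm

theorem spMap_tv {K : Type*} [Field K] (j : K →+* F) (v : V m K) (a : K) :
    spMap j (tv v a) = tv (fun i => j (v i)) (j a) := by
  apply Subtype.ext
  ext i k
  simp [spMap_val, tv, Cfsg.sympTransvection, Matrix.vecMulVec_apply, Matrix.one_apply,
    Matrix.mulVec, dotProduct, J_map_apply, apply_ite]

theorem fldS_tv (τ : F ≃+* F) (v : V m F) (a : F) :
    fldS τ (tv v a) = tv (fun i => τ (v i)) (τ a) :=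
  spMap_tv (τ : F →+* F) v a

/-! ### rigidity -/

section

open scoped commutatorElement

/-- R1: a semilinear automorphism fixing all `0/1` transvections has scalar linear part -/
theorem scalar_of_fix_zo (r : ℕ) [Fact r.Prime] [CharP F r] (hm : 0 < m) (g : ↥(Cfsg.GSp m F))
    (τ : F ≃+* F)
    (h : ∀ b : Fin m ⊕ Fin m → Bool, (cG g * fl τ : MulAut (Cfsg.PSp m F))
      (pm (tv (zo b) (1 : F))) = pm (tv (zo b) (1 : F))) :
    ∃ a : F, g.1.1 = a • (1 : Matrix (Fin m ⊕ Fin m) (Fin m ⊕ Fin m) F) := by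
  apply scalar_of_commute_zo hm
  intro b
  have h1 : pm (cS g (tv (zo b) 1)) = pm (tv (zo b) 1) := by
    have h2 := h b
    have e : (fun i => τ ((zo b : V m F) i)) = zo b := map_zo (τ : F →+* F) b
    rw [MulAut.mul_apply, fl_pm, fldS_tv, map_one, e, cG_pm] at h2
    exact h2
  have h3 : cS g (tv (zo b) 1) = tv (zo b) 1 := by
    apply eq_of_pm_eq r hm h1
    · rw [← map_pow, tv_pow_char r, map_one]
    · exact tv_pow_char r _ _
  have h4 := cS_mul g (tv (zo b) 1)
  rw [h3] at h4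
  exact h4.symm

theorem cG_eq_one_of_fix_zo (r : ℕ) [Fact r.Prime] [CharP F r] (hm : 0 < m)
    (g : ↥(Cfsg.GSp m F)) (τ : F ≃+* F)
    (h : ∀ b : Fin m ⊕ Fin m → Bool, (cG g * fl τ : MulAut (Cfsg.PSp m F))
      (pm (tv (zo b) (1 : F))) = pm (tv (zo b) (1 : F))) :
    cG g = 1 := by
  obtain ⟨a, ha⟩ := scalar_of_fix_zo r hm g τ h
  exact cG_eq_one_of_smul ha

/-- R2 -/
theorem fix_of_fl_fix (r : ℕ) [Fact r.Prime] [CharP F r] (hm : 0 < m) (τ : F ≃+* F) (a : F)
    (h : fl τ (pm (tv (eb ⟨0, hm⟩) a)) = pm (tv (eb ⟨0, hm⟩) a)) : τ a = a := by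
  rw [fl_pm, fldS_tv] at h
  have e : (fun i => τ ((eb ⟨0, hm⟩ : V m F) i)) = eb ⟨0, hm⟩ := by
    funext i
    by_cases hi : i = Sum.inl ⟨0, hm⟩
    · subst hi; simp [eb]
    · simp [eb, hi]
  rw [e] at h
  exact tv_inj_right (eb_ne_zero _) (eq_of_pm_eq r hm h (tv_pow_char r _ _) (tv_pow_char r _ _))

/-- R3 -/
theorem eq_one_of_cG_mul_fl_eq_one (r : ℕ) [Fact r.Prime] [CharP F r] (hm : 0 < m) (g : ↥(Cfsg.GSp m F)) (τ : F ≃+* F)
    (h : cG g * fl τ = 1) : τ = 1 := by
  have h1 := cG_eq_one_of_fix_zo r hm g τ (fun b => by rw [h]; rfl)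
  rw [h1, one_mul] at h
  exact fl_injective hm (h.trans (map_one fl).symm)

/-- R4 -/
theorem eq_one_of_commute_zo (r : ℕ) [Fact r.Prime] [CharP F r] (hm : 0 < m) (k : Cfsg.PSp m F)
    (h : ∀ b : Fin m ⊕ Fin m → Bool, k * pm (tv (zo b) (1 : F)) = pm (tv (zo b) (1 : F)) * k) :
    k = 1 := by
  obtain ⟨s, rfl⟩ := pm_surjective k
  obtain ⟨a, ha⟩ := scalar_of_fix_zo r hm (ofSp s) 1 (fun b => by
    rw [map_one, mul_one, cG_ofSp, MulAut.conj_apply, h b, mul_assoc, mul_inv_cancel, mul_one])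
  rw [ofSp_val] at ha
  apply (QuotientGroup.eq_one_iff s).2
  apply mem_center_of_scalar (ε := a)
  intro x
  show s.1 *ᵥ x = a • x
  rw [ha, Matrix.smul_mulVec, Matrix.one_mulVec]

theorem conj_injective (r : ℕ) [Fact r.Prime] [CharP F r] (hm : 0 < m) :
    Function.Injective (MulAut.conj : Cfsg.PSp m F →* MulAut (Cfsg.PSp m F)) := by
  rw [injective_iff_map_eq_one]
  intro k hk
  apply eq_one_of_commute_zo r hm
  intro b
  have := congrArg (fun f : MulAut (Cfsg.PSp m F) => f (pm (tv (zo b) 1))) hk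
  simp only [MulAut.conj_apply, MulAut.one_apply] at this
  conv_rhs => rw [← this]
  group

/-! ### Galois -/

theorem mem_zpowers_of_fix [Finite F] (σ τ : F ≃+* F) (h : ∀ a, σ a = a → τ a = a) :
    τ ∈ Subgroup.zpowers σ := by
  have : Finite (RingAut F) := Finite.of_injective (fun e : F ≃+* F => (e : F → F))
    DFunLike.coe_injective
  let G : Subgroup (RingAut F) := Subgroup.zpowers σ
  have hfix : ∀ a : FixedPoints.subfield G F, τ a.1 = a.1 := by
    intro a
    apply h
    exact a.2 ⟨σ, Subgroup.mem_zpowers σ⟩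
  let τ' : F →ₐ[FixedPoints.subfield G F] F :=
    { (τ : F →+* F) with commutes' := hfix }
  obtain ⟨g, hg⟩ := (FixedPoints.toAlgHom_bijective G F).2 τ'
  have : g.1 = τ := by
    ext x
    have := congrArg (fun f : F →ₐ[FixedPoints.subfield G F] F => f x) hg
    exact this
  rw [← this]
  exact g.2

/-! ### normal subgroups of `Sp` -/

theorem h7_tv_pow {l : Type*} [Fintype l] [DecidableEq l] (u : l ⊕ l → F) (c : F) (k : ℕ) :
    Cfsg.Agent.Lib.Helper7.tv u c ^ k = Cfsg.Agent.Lib.Helper7.tv u (k * c) := by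
  induction k with
  | zero => rw [pow_zero, Nat.cast_zero, zero_mul, Cfsg.Agent.Lib.Helper7.tv_zero]
  | succ k ih => rw [pow_succ, ih, Cfsg.Agent.Lib.Helper7.tv_mul]; congr 1; push_cast; ring

theorem sp_normal_dichotomy {l : Type*} [Fintype l] [DecidableEq l] (r : ℕ) [CharP F r]
    (L : Subgroup (symplecticGroup l F)) [hL : L.Normal] :
    L ≤ Subgroup.center (symplecticGroup l F) ∨ ∀ s, s ^ r ∈ L := by
  have hprim := Cfsg.Agent.Lib.Helper7.sp_isPreprimitive (l := l) (F := F)
  by_cases hfix : MulAction.fixedPoints L (Projectivization F (l ⊕ l → F)) = Set.univ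
  · left
    intro g hg
    apply Cfsg.Agent.Lib.Helper7.sp_mem_center_of_fix
    intro q
    have : q ∈ MulAction.fixedPoints L (Projectivization F (l ⊕ l → F)) := by rw [hfix]; trivial
    exact this ⟨g, hg⟩
  · right
    have h1 := Cfsg.Agent.Lib.Helper7.spIwasawa.commutator_le L hfix
    have hcomm : ∀ a b : symplecticGroup l F,
        (QuotientGroup.mk' L a) * (QuotientGroup.mk' L b) =
          (QuotientGroup.mk' L b) * (QuotientGroup.mk' L a) := by
      intro a b
      rw [← map_mul, ← map_mul]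
      apply (QuotientGroup.eq).2
      apply h1
      have : (a * b)⁻¹ * (b * a) = ⁅b⁻¹, a⁻¹⁆ := by
        rw [commutatorElement_def]; group
      rw [this]
      exact Subgroup.commutator_mem_commutator (Subgroup.mem_top _) (Subgroup.mem_top _)
    intro s
    have hs : s ∈ Cfsg.Agent.Lib.Helper7.TW (⊤ : Submodule F (l ⊕ l → F)) := by
      rw [Cfsg.Agent.Lib.Helper7.TW_top]; trivial
    rw [← QuotientGroup.eq_one_iff, ← QuotientGroup.mk'_apply, map_pow]
    rw [Cfsg.Agent.Lib.Helper7.TW] at hs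
    induction hs using Subgroup.closure_induction with
    | mem x hx =>
      obtain ⟨u, -, c, rfl⟩ := hx
      rw [← map_pow, h7_tv_pow, CharP.cast_eq_zero, zero_mul, Cfsg.Agent.Lib.Helper7.tv_zero,
        map_one]
    | one => rw [map_one, one_pow]
    | mul x y _ _ hx hy =>
      rw [map_mul, (show Commute _ _ from hcomm x y).mul_pow, hx, hy, one_mul]
    | inv x _ hx => rw [map_inv, inv_pow, hx, inv_one]

end

end Cfsg.Agent.Lib.Helper1.PSpAut
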