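import Mathlib
import Cfsg.Agent.Lib.Helper1.PSpAut.Rigid
import Cfsg.Agent.Lib.Helper1.PSpAut.BalGen

set_option autoImplicit false
set_option linter.unusedSectionVars false
set_option linter.unusedVariables false

/-!
`O_{p'}` of the centraliser of a field automorphism of `PSp_{2m}(F)`.
-/

namespace Cfsg.Agent.Lib.Helper1.PSpAut

open Matrix
open Cfsg.Agent.Lib.Helper18.AutPSp (V Sp B ac tv eb fb ac_tv tv_conj tv_pow_char eq_of_pm_eq
  exists_B_eq_one mem_center_of_scalar tv_inj_right eb_ne_zero tor ac_tor ac_tor_eb ac_tor_of_mem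
  eb_mem_WW two_ne_zero_of_ne exists_eps_of_mem_center sp_ext ac_mul ac_one)

variable {m : ℕ} {F : Type*} [Field F] {F₀ : Type*} [Field F₀]

/-- fixed points -/
abbrev Fx {K : Type*} [Group K] (φ : MulAut K) : Subgroup K :=
  MonoidHom.eqLocus φ.toMonoidHom (MonoidHom.id K)

theorem mem_Fx {K : Type*} [Group K] {φ : MulAut K} {k : K} : k ∈ Fx φ ↔ φ k = k := Iff.rfl

/-- `Sp(F₀) → PSp(F)` -/
noncomputable def Ph (j : F₀ →+* F) : Sp m F₀ →* Cfsg.PSp m F :=
  (QuotientGroup.mk' _).comp (spMap j)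

theorem Ph_apply (j : F₀ →+* F) (c : Sp m F₀) : Ph j c = pm (spMap j c) := rfl

theorem fldS_spMap (j : F₀ →+* F) (σ : F ≃+* F) (hj : ∀ x, σ (j x) = j x) (c : Sp m F₀) :
    fldS σ (spMap j c) = spMap j c := by
  apply Subtype.ext
  ext i k
  exact hj _

theorem fl_Ph (j : F₀ →+* F) (σ : F ≃+* F) (hj : ∀ x, σ (j x) = j x) (c : Sp m F₀) :
    fl σ (Ph j c) = Ph j c := by
  rw [Ph_apply, fl_pm, fldS_spMap j σ hj]

theorem exists_spMap_of_fix (j : F₀ →+* F) (σ : F ≃+* F) (hj : ∀ x, σ x = x → x ∈ Set.range j)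
    (s : Sp m F) (h : fldS σ s = s) : ∃ c : Sp m F₀, spMap j c = s := by
  have h3 : ∀ i k, ∃ y, j y = s.1 i k := fun i k =>
    hj _ (congrFun (congrFun (congrArg Subtype.val h) i) k)
  choose M₀ hM₀ using h3
  have hM : (Matrix.of M₀).map j = s.1 := by
    ext i k
    exact hM₀ i k
  have hJ : Matrix.of M₀ * J (Fin m) F₀ * (Matrix.of M₀)ᵀ = J (Fin m) F₀ := by
    have hinj : Function.Injective
        (fun M : Matrix (Fin m ⊕ Fin m) (Fin m ⊕ Fin m) F₀ => M.map j) :=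
      Matrix.map_injective j.injective
    apply hinj
    show (Matrix.of M₀ * J (Fin m) F₀ * (Matrix.of M₀)ᵀ).map j = (J (Fin m) F₀).map j
    rw [Matrix.map_mul, Matrix.map_mul, transpose_map, hM, J_map]
    exact SymplecticGroup.mem_iff.1 s.2
  exact ⟨⟨Matrix.of M₀, SymplecticGroup.mem_iff.2 hJ⟩, Subtype.ext hM⟩

theorem Ph_eq_one_of_center (j : F₀ →+* F) {c : Sp m F₀} (hc : c ∈ Subgroup.center (Sp m F₀)) :
    Ph j c = 1 := by
  rw [Ph_apply]
  apply (QuotientGroup.eq_one_iff _).2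
  rcases Cfsg.Agent.Lib.Helper43.sp_center_coe m c hc with h | h
  · apply mem_center_of_scalar (ε := 1)
    intro x
    show (c.1.map j) *ᵥ x = _
    rw [h, Matrix.map_one _ (map_zero j) (map_one j), Matrix.one_mulVec, one_smul]
  · apply mem_center_of_scalar (ε := -1)
    intro x
    show (c.1.map j) *ᵥ x = _
    have : ((-1 : Matrix (Fin m ⊕ Fin m) (Fin m ⊕ Fin m) F₀)).map j = -1 := by
      ext i k
      by_cases hik : i = k
      · subst hik; simp
      · simp [hik]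
    rw [h, this, Matrix.neg_mulVec, Matrix.one_mulVec, neg_smul, one_smul]

/-- a lift of a fixed point is fixed up to a central element -/
theorem exists_central_of_fix (σ : F ≃+* F) (s : Sp m F) (h : fl σ (pm s) = pm s) :
    ∃ z ∈ Subgroup.center (Sp m F), fldS σ s = s * z := by
  rw [fl_pm] at h
  refine ⟨s⁻¹ * fldS σ s, (QuotientGroup.eq).1 h.symm, by group⟩

theorem conj_Ph (j : F₀ →+* F) (σ : F ≃+* F) (hj : ∀ x, σ x = x ↔ x ∈ Set.range j)
    (k : Cfsg.PSp m F) (hk : fl σ k = k) (c : Sp m F₀) : ∃ c', k * Ph j c * k⁻¹ = Ph j c' := by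
  obtain ⟨s, rfl⟩ := pm_surjective k
  obtain ⟨z, hz, hs⟩ := exists_central_of_fix σ s hk
  have hj1 : ∀ x, σ (j x) = j x := fun x => (hj _).2 ⟨x, rfl⟩
  obtain ⟨c', hc'⟩ := exists_spMap_of_fix j σ (fun x => (hj x).1) (s * spMap j c * s⁻¹) (by
    rw [map_mul, map_mul, map_inv, hs, fldS_spMap j σ hj1]
    have e := Subgroup.mem_center_iff.1 hz (spMap j c)
    calc s * z * spMap j c * (s * z)⁻¹ = s * (z * spMap j c) * z⁻¹ * s⁻¹ := by group
      _ = s * (spMap j c * z) * z⁻¹ * s⁻¹ := by rw [e]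
      _ = _ := by group)
  exact ⟨c', by rw [Ph_apply, Ph_apply, hc']; rfl⟩

theorem center_sq (z : Sp m F) (hz : z ∈ Subgroup.center (Sp m F)) : z * z = 1 := by
  apply Subtype.ext
  show z.1 * z.1 = 1
  rcases Cfsg.Agent.Lib.Helper43.sp_center_coe m z hz with h | h <;> rw [h] <;> simp

theorem map_eb (j : F₀ →+* F) (i : Fin m) : (fun k => j ((eb i : V m F₀) k)) = (eb i : V m F) := by
  have e1 : (eb i : V m F₀) = zo (fun k => decide (k = Sum.inl i)) := (zo_single _).symm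
  have e2 : (eb i : V m F) = zo (fun k => decide (k = Sum.inl i)) := (zo_single _).symm
  rw [e1, e2, map_zo]

theorem tor_neg_one_sq (i : Fin m) (h : (-1 : F) ≠ 0) : tor i (-1 : F) h * tor i (-1 : F) h = 1 := by
  apply sp_ext
  intro x
  rw [ac_mul, ac_one, ac_tor, ac_tor]
  simp only [Cfsg.Agent.Lib.Helper18.AutPSp.B_add_left, Cfsg.Agent.Lib.Helper18.AutPSp.B_sub_left,
    Cfsg.Agent.Lib.Helper18.AutPSp.B_smul_left, Cfsg.Agent.Lib.Helper18.AutPSp.B_eb_fb,
    Cfsg.Agent.Lib.Helper18.AutPSp.B_fb_eb, Cfsg.Agent.Lib.Helper18.AutPSp.B_eb_eb,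
    Cfsg.Agent.Lib.Helper18.AutPSp.B_fb_fb, inv_neg, inv_one]
  module

theorem exists_order_p [Finite F] (hm : 2 ≤ m) (r : ℕ) [Fact r.Prime] [CharP F r] (p : ℕ)
    [Fact p.Prime] (hpr : p ≠ r) (j : F₀ →+* F) (σ : F ≃+* F)
    (hj : ∀ x, σ x = x ↔ x ∈ Set.range j)
    (hp : p ∣ Nat.card (Fx (fl σ : MulAut (Cfsg.PSp m F)))) :
    ∃ c : Sp m F₀, orderOf (Ph j c : Cfsg.PSp m F) = p := by
  by_cases h2 : p = 2
  · subst h2
    have h1 : (-1 : F₀) ≠ 0 := neg_ne_zero.2 one_ne_zero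
    refine ⟨tor ⟨0, by omega⟩ (-1) h1, ?_⟩
    apply orderOf_eq_prime
    · rw [← map_pow, pow_two, tor_neg_one_sq, map_one]
    · intro h
      rw [Ph_apply] at h
      obtain ⟨ε, -, hε⟩ := exists_eps_of_mem_center ((QuotientGroup.eq_one_iff _).1 h)
      have e1 := hε (eb ⟨0, by omega⟩)
      have e2 := hε (eb ⟨1, by omega⟩)
      rw [← map_eb j, spMap_ac, ac_tor_eb] at e1
      rw [← map_eb j, spMap_ac, ac_tor_of_mem _ _ (eb_mem_WW (by
        intro h0
        have := congrArg Fin.val h0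
        simp at this))] at e2
      have e3 := congrFun e1 (Sum.inl ⟨0, by omega⟩)
      have e4 := congrFun e2 (Sum.inl ⟨1, by omega⟩)
      simp [eb] at e3 e4
      apply two_ne_zero_of_ne (F := F) r (Ne.symm hpr)
      rw [← e4] at e3
      linear_combination -e3
  · have : Finite (Cfsg.PSp m F) := inferInstance
    obtain ⟨k, hk⟩ := exists_prime_orderOf_dvd_card' p hp
    rw [← Subgroup.orderOf_coe] at hk
    obtain ⟨s, hs⟩ := pm_surjective k.1
    have hfix : fl σ (pm s) = pm s := by rw [hs]; exact k.2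
    obtain ⟨z, hz, hsz⟩ := exists_central_of_fix σ s hfix
    obtain ⟨c, hc⟩ := exists_spMap_of_fix j σ (fun x => (hj x).1) (s * s) (by
      rw [map_mul, hsz]
      have e := Subgroup.mem_center_iff.1 hz s
      calc s * z * (s * z) = s * (z * s) * z := by group
        _ = s * (s * z) * z := by rw [e]
        _ = s * s * (z * z) := by group
        _ = _ := by rw [center_sq z hz, mul_one])
    refine ⟨c, ?_⟩
    have e : (Ph j c : Cfsg.PSp m F) = k.1 ^ 2 := by
      rw [Ph_apply, hc, ← hs, pow_two]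
      rfl
    rw [e, Nat.Coprime.orderOf_pow, hk]
    rw [hk]
    exact (Nat.coprime_primes Fact.out Nat.prime_two).2 h2

theorem pm_tv_zo_eq_Ph (j : F₀ →+* F) (b : Fin m ⊕ Fin m → Bool) :
    pm (tv (zo b) (1 : F)) = Ph j (tv (zo b) 1) := by
  rw [Ph_apply, spMap_tv, map_zo, map_one]

theorem aut_conj_aux {K : Type*} [Group K] (β : MulAut K) (k : K) :
    MulAut.conj (β k * k⁻¹) = β * (MulAut.conj k * β⁻¹ * (MulAut.conj k)⁻¹) := by
  ext y
  simp [MulAut.mul_apply, MulAut.conj_apply, mul_assoc]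

theorem aut_conj_aux2 {K : Type*} [Group K] (β : MulAut K) (k : K) :
    β * MulAut.conj k * β⁻¹ = MulAut.conj (β k) := by
  ext y
  simp [MulAut.mul_apply, MulAut.conj_apply, mul_assoc]

theorem no_core [Finite F] (hm : 2 ≤ m) (r : ℕ) [Fact r.Prime] [CharP F r] (p : ℕ)
    [Fact p.Prime] (hpr : p ≠ r) (j : F₀ →+* F) (σ : F ≃+* F) (hσ : σ ^ p = 1)
    (hj : ∀ x, σ x = x ↔ x ∈ Set.range j)
    (hub : ∀ β : MulAut (Cfsg.PSp m F),
      (∀ b, β (pm (tv (zo b) (1 : F))) = pm (tv (zo b) (1 : F))) →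
        ∃ (g : ↥(Cfsg.GSp m F)) (τ : F ≃+* F), β = cG g * fl τ)
    (C N : Subgroup (MulAut (Cfsg.PSp m F))) (hC1 : ∀ c ∈ C, c * fl σ = fl σ * c)
    (hC2 : ∀ k, fl σ k = k → MulAut.conj k ∈ C)
    (hN : N ≤ C) (hnorm : ∀ c ∈ C, ∀ n ∈ N, c * n * c⁻¹ ∈ N) (hcop : (Nat.card N).Coprime p)
    (hp : p ∣ Nat.card (Fx (fl σ : MulAut (Cfsg.PSp m F)))) : N = ⊥ := by
  have hm0 : 0 < m := by omega
  have : CharP F₀ r := RingHom.charP j j.injective r
  have hj1 : ∀ x, σ (j x) = j x := fun x => (hj _).2 ⟨x, rfl⟩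
  have hPhC : ∀ c : Sp m F₀, MulAut.conj (Ph j c : Cfsg.PSp m F) ∈ C :=
    fun c => hC2 _ (fl_Ph j σ hj1 c)
  let L : Subgroup (Sp m F₀) := N.comap (MulAut.conj.comp (Ph j))
  have hL : L.Normal := ⟨fun c hc d => by
    show MulAut.conj (Ph j (d * c * d⁻¹)) ∈ N
    rw [map_mul, map_mul, map_inv, map_mul, map_mul, map_inv]
    exact hnorm _ (hPhC d) _ hc⟩
  have hfin : Finite (MulAut (Cfsg.PSp m F)) := inferInstance
  rcases sp_normal_dichotomy r L with hcase | hcase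
  swap
  · exfalso
    obtain ⟨c, hc⟩ := exists_order_p hm r p hpr j σ hj hp
    have h1 : MulAut.conj (Ph j c : Cfsg.PSp m F) ^ r ∈ N := by
      have := hcase c
      rw [← map_pow, ← map_pow]
      exact this
    have hco : Nat.Coprime p r := (Nat.coprime_primes Fact.out Fact.out).2 hpr
    have h2 : orderOf (MulAut.conj (Ph j c : Cfsg.PSp m F) ^ r) = p := by
      rw [Nat.Coprime.orderOf_pow, orderOf_injective _ (conj_injective r hm0), hc]
      rw [orderOf_injective _ (conj_injective r hm0), hc]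
      exact hco
    have h3 : p ∣ Nat.card N := by
      have := orderOf_dvd_natCard (⟨_, h1⟩ : N)
      rwa [Subgroup.orderOf_mk, h2] at this
    have := Nat.Coprime.eq_one_of_dvd hcop.symm h3
    exact (Fact.out : p.Prime).one_lt.ne' this
  · have A1 : ∀ k, fl σ k = k → MulAut.conj k ∈ N → k = 1 := by
      intro k hk hkN
      apply eq_one_of_commute_zo r hm0
      intro b
      rw [pm_tv_zo_eq_Ph j b]
      set c := tv (zo b) (1 : F₀)
      obtain ⟨c', hc'⟩ := conj_Ph j σ hj k hk c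
      have h1 : c' * c⁻¹ ∈ L := by
        show MulAut.conj (Ph j (c' * c⁻¹)) ∈ N
        rw [map_mul, ← hc', map_inv]
        have : MulAut.conj (k * Ph j c * k⁻¹ * (Ph j c)⁻¹) =
            MulAut.conj k * (MulAut.conj (Ph j c) * (MulAut.conj k)⁻¹ *
              (MulAut.conj (Ph j c))⁻¹) := by
          simp only [map_mul, map_inv, mul_assoc]
        rw [this]
        exact N.mul_mem hkN (hnorm _ (hPhC c) _ (N.inv_mem hkN))
      have h2 := Ph_eq_one_of_center j (hcase h1)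
      rw [map_mul, ← hc', map_inv] at h2
      calc k * Ph j c = (k * Ph j c * k⁻¹ * (Ph j c)⁻¹) * (Ph j c * k) := by group
        _ = _ := by rw [h2, one_mul]
    have A2 : ∀ β ∈ N, ∀ k, fl σ k = k → β k = k := by
      intro β hβ k hk
      have hβσ := hC1 β (hN hβ)
      have hfix : fl σ (β k) = β k := by
        have := congrArg (fun f : MulAut (Cfsg.PSp m F) => f k) hβσ
        simp only [MulAut.mul_apply, hk] at this
        exact this.symm
      have h1 : β k * k⁻¹ = 1 := by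
        apply A1
        · rw [map_mul, map_inv, hfix, hk]
        · rw [aut_conj_aux]
          exact N.mul_mem hβ (hnorm _ (hC2 k hk) _ (N.inv_mem hβ))
      exact mul_inv_eq_one.1 h1
    rw [eq_bot_iff]
    intro β hβ
    rw [Subgroup.mem_bot]
    have hfixPh : ∀ c, β (Ph j c) = Ph j c := fun c => A2 β hβ _ (fl_Ph j σ hj1 c)
    have hzo : ∀ b, β (pm (tv (zo b) (1 : F))) = pm (tv (zo b) (1 : F)) := by
      intro b
      rw [pm_tv_zo_eq_Ph j b]
      exact hfixPh _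
    obtain ⟨g, τ, rfl⟩ := hub β hzo
    have h1 := cG_eq_one_of_fix_zo r hm0 g τ hzo
    rw [h1, one_mul] at hβ hfixPh ⊢
    have hτ : τ ∈ Subgroup.zpowers σ := by
      apply mem_zpowers_of_fix
      intro a ha
      obtain ⟨a₀, rfl⟩ := (hj a).1 ha
      apply fix_of_fl_fix r hm0
      have := hfixPh (tv (eb ⟨0, hm0⟩) a₀)
      rwa [Ph_apply, spMap_tv, map_eb] at this
    obtain ⟨n, rfl⟩ := hτ
    have hp1 : (fl (σ ^ n) : MulAut (Cfsg.PSp m F)) ^ p = 1 := by
      rw [← map_pow, ← zpow_natCast, ← _root_.zpow_mul, mul_comm, _root_.zpow_mul, zpow_natCast,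
        hσ, _root_.one_zpow, map_one]
    have h4 : orderOf (fl (σ ^ n) : MulAut (Cfsg.PSp m F)) ∣ p := orderOf_dvd_of_pow_eq_one hp1
    have h5 : orderOf (fl (σ ^ n) : MulAut (Cfsg.PSp m F)) ∣ Nat.card N := by
      have := orderOf_dvd_natCard (⟨_, hβ⟩ : N)
      rwa [Subgroup.orderOf_mk] at this
    exact orderOf_eq_one_iff.1 (Nat.eq_one_of_dvd_coprimes hcop h5 h4)

theorem has_core [Finite F] (hm : 0 < m) (r : ℕ) [Fact r.Prime] [CharP F r] (p : ℕ)
    (σ : F ≃+* F) (A : Subgroup (MulAut (Cfsg.PSp m F)))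
    (hinn : ∀ k : Cfsg.PSp m F, MulAut.conj k ∈ A)
    (hcop : Nat.Coprime p (Nat.card (Fx (fl σ : MulAut (Cfsg.PSp m F))))) :
    HasPPrime p (A ⊓ Subgroup.centralizer {fl σ}) := by
  refine ⟨(Fx (fl σ : MulAut (Cfsg.PSp m F))).map MulAut.conj, ?_, ?_, ?_, ?_⟩
  · rintro _ ⟨k, hk, rfl⟩
    refine ⟨hinn k, ?_⟩
    apply Subgroup.mem_centralizer_singleton_iff.2
    have h1 := aut_conj_aux2 (fl σ) k
    rw [mem_Fx.1 hk] at h1
    calc MulAut.conj k * fl σ = (fl σ * MulAut.conj k * (fl σ)⁻¹) * fl σ := by rw [h1]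
      _ = _ := by group
  · rintro c ⟨-, hc⟩ _ ⟨k, hk, rfl⟩
    have hc' := Subgroup.mem_centralizer_singleton_iff.1 hc
    refine ⟨c k, ?_, (aut_conj_aux2 c k).symm⟩
    apply mem_Fx.2
    have := congrArg (fun f : MulAut (Cfsg.PSp m F) => f k) hc'
    simp only [MulAut.mul_apply, mem_Fx.1 hk] at this
    exact this.symm
  · rw [Subgroup.card_map_of_injective (conj_injective r hm)]
    exact hcop.symm
  · intro h0
    have h1 : MulAut.conj (pm (tv (eb ⟨0, hm⟩) (1 : F))) ∈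
        (Fx (fl σ : MulAut (Cfsg.PSp m F))).map MulAut.conj := by
      refine ⟨_, ?_, rfl⟩
      apply mem_Fx.2
      rw [fl_pm, fldS_tv, map_one]
      have := map_eb (σ : F →+* F) (⟨0, hm⟩ : Fin m)
      congr 2
    rw [h0, Subgroup.mem_bot] at h1
    have h2 := conj_injective r hm (h1.trans (map_one _).symm)
    rcases (Cfsg.Agent.Lib.Helper18.AutPSp.pm_tv_eq_one_iff r hm).1 h2 with h3 | h3
    · exact eb_ne_zero _ h3
    · exact one_ne_zero h3

theorem balance_fl [Finite F] (hm : 2 ≤ m) (r : ℕ) [Fact r.Prime] [CharP F r] (p : ℕ)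
    [Fact p.Prime] (hpr : p ≠ r) (σ : F ≃+* F) (hσ : σ ^ p = 1)
    (hub : ∀ β : MulAut (Cfsg.PSp m F),
      (∀ b, β (pm (tv (zo b) (1 : F))) = pm (tv (zo b) (1 : F))) →
        ∃ (g : ↥(Cfsg.GSp m F)) (τ : F ≃+* F), β = cG g * fl τ)
    (A : Subgroup (MulAut (Cfsg.PSp m F))) (hinn : ∀ k : Cfsg.PSp m F, MulAut.conj k ∈ A) :
    HasPPrime p (A ⊓ Subgroup.centralizer {fl σ}) ↔
      Nat.Coprime p (Nat.card (Fx (fl σ : MulAut (Cfsg.PSp m F)))) := by
  constructor
  · rintro ⟨N, hle, hnorm, hcop, hne⟩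
    by_contra hcon
    apply hne
    rw [Nat.Prime.coprime_iff_not_dvd Fact.out, not_not] at hcon
    apply no_core hm r p hpr (RingHom.eqLocusField (σ : F →+* F) (RingHom.id F)).subtype σ hσ
      ?_ hub (A ⊓ Subgroup.centralizer {fl σ}) N ?_ ?_ hle hnorm hcop hcon
    · intro x
      constructor
      · intro hx
        exact ⟨⟨x, hx⟩, rfl⟩
      · rintro ⟨y, rfl⟩
        exact y.2
    · intro c hc
      exact Subgroup.mem_centralizer_singleton_iff.1 hc.2
    · intro k hk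
      refine ⟨hinn k, ?_⟩
      apply Subgroup.mem_centralizer_singleton_iff.2
      have h1 := aut_conj_aux2 (fl σ) k
      rw [hk] at h1
      calc MulAut.conj k * fl σ = (fl σ * MulAut.conj k * (fl σ)⁻¹) * fl σ := by rw [h1]
        _ = _ := by group
  · exact has_core (by omega) r p σ A hinn

end Cfsg.Agent.Lib.Helper1.PSpAut
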