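import Mathlib
import Cfsg.Agent.Lib.Helper1.PSpAut.Balance

set_option autoImplicit false
set_option linter.unusedSectionVars false
set_option linter.unusedVariables false

/-!
Local balance for `PSp_{2m}(F)`: reduction to standard field automorphisms.
-/

namespace Cfsg.Agent.Lib.Helper1.PSpAut

open Matrix
open Cfsg.Agent.Lib.Helper18.AutPSp (V Sp B ac tv eb fb ac_tv tv_conj tv_pow_char eq_of_pm_eq
  eb_ne_zero IsTv TvP aut_form aut_form_g exists_ac_eq)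

variable {m : ℕ} {F : Type*} [Field F]

/-- in characteristic `2` an automorphism fixing one transvection preserves transvections -/
theorem isTv_of_fix [Finite F] (hm : 0 < m) (h2 : ringChar F = 2) (β : MulAut (Cfsg.PSp m F))
    (h : β (pm (tv (eb ⟨0, hm⟩) (1 : F))) = pm (tv (eb ⟨0, hm⟩) (1 : F)))
    (t : Cfsg.PSp m F) (ht : IsTv t) : IsTv (β t) := by
  obtain ⟨v, a, rfl⟩ := ht
  by_cases hv : v = 0
  · subst hv
    rw [Cfsg.Agent.Lib.Helper18.AutPSp.tv_zero_left]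
    exact ⟨0, 0, by
      rw [Cfsg.Agent.Lib.Helper18.AutPSp.tv_zero_left]
      exact map_one β⟩
  by_cases ha : a = 0
  · subst ha
    rw [Cfsg.Agent.Lib.Helper18.AutPSp.tv_zero]
    exact ⟨0, 0, by
      rw [Cfsg.Agent.Lib.Helper18.AutPSp.tv_zero_left]
      exact map_one β⟩
  obtain ⟨b, rfl⟩ := FiniteField.isSquare_of_char_two h2 a
  have hb : b ≠ 0 := by
    rintro rfl
    exact ha (mul_zero 0)
  obtain ⟨s, hs⟩ := exists_ac_eq (eb_ne_zero (F := F) ⟨0, hm⟩) (smul_ne_zero hb hv)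
  have e : tv v (b * b) = s * tv (eb ⟨0, hm⟩) 1 * s⁻¹ := by
    rw [tv_conj, hs, Cfsg.Agent.Lib.Helper18.AutPSp.tv_smul, mul_one, pow_two]
  have e2 : β (pm (tv v (b * b))) = β (pm s) * pm (tv (eb ⟨0, hm⟩) (1 : F)) * (β (pm s))⁻¹ := by
    rw [e]
    show β (pm s * pm (tv (eb ⟨0, hm⟩) (1 : F)) * (pm s)⁻¹) = _
    rw [map_mul, map_mul, map_inv, h]
  rw [e2]
  exact IsTv.conj ⟨_, _, rfl⟩ _

theorem hub_fix [Fintype F] (hm : 2 ≤ m) (r : ℕ) [Fact r.Prime] [CharP F r]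
    (β : MulAut (Cfsg.PSp m F))
    (h : ∀ b, β (pm (tv (zo b) (1 : F))) = pm (tv (zo b) (1 : F))) :
    ∃ (g : ↥(Cfsg.GSp m F)) (τ : F ≃+* F), β = cG g * fl τ := by
  by_cases h4 : m = 2 → r ≠ 2
  · obtain ⟨g, τ, hg, hind⟩ := aut_form r hm h4 β
    exact ⟨⟨g, hg⟩, τ, eq_of_isInduced hg hind⟩
  · push Not at h4
    obtain ⟨-, rfl⟩ := h4
    have hm0 : 0 < m := by omega
    have h2 : ringChar F = 2 := ringChar.eq F 2
    have h0 : β (pm (tv (eb ⟨0, hm0⟩) (1 : F))) = pm (tv (eb ⟨0, hm0⟩) (1 : F)) := by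
      have e : (eb ⟨0, hm0⟩ : V m F) = zo (fun k => decide (k = Sum.inl ⟨0, hm0⟩)) :=
        (zo_single _).symm
      rw [e]
      exact h _
    have h0' : β⁻¹ (pm (tv (eb ⟨0, hm0⟩) (1 : F))) = pm (tv (eb ⟨0, hm0⟩) (1 : F)) := by
      conv_lhs => rw [← h0]
      exact MulAut.inv_apply_self _ _ _
    obtain ⟨g, τ, hg, hind⟩ := aut_form_g 2 hm β
      ⟨isTv_of_fix hm0 h2 β h0, isTv_of_fix hm0 h2 β⁻¹ h0'⟩
    exact ⟨⟨g, hg⟩, τ, eq_of_isInduced hg hind⟩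

theorem balance_of_form [Fintype F] (hm : 2 ≤ m) (r : ℕ) [Fact r.Prime] [CharP F r] (p : ℕ)
    [Fact p.Prime] (hpr : p ≠ r)
    (A : Subgroup (MulAut (Cfsg.PSp m F))) (hinn : ∀ k : Cfsg.PSp m F, MulAut.conj k ∈ A)
    (x : MulAut (Cfsg.PSp m F)) (hord : orderOf x = p) (hnot : ¬ Cfsg.IsInnerDiagonalAutPSp x)
    (hx : ∃ (g : ↥(Cfsg.GSp m F)) (σ : F ≃+* F), x = cG g * fl σ) :
    Cfsg.pPrimeCore p ↥(A ⊓ Subgroup.centralizer {x}) ≠ ⊥ ↔
      (Cfsg.IsFieldAutClassPSp x ∧ Nat.Coprime p (Nat.card ↥(MonoidHom.eqLocus x.toMonoidHom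
        (MonoidHom.id (Cfsg.PSp m F))))) := by
  have hm0 : 0 < m := by omega
  obtain ⟨g, σ, rfl⟩ := hx
  have hσ1 : σ ≠ 1 := by
    rintro rfl
    apply hnot
    refine ⟨g.1, g.2, ?_⟩
    exact isInduced_cG_fl g (RingEquiv.refl F)
  have hpow : (cG g * fl σ : MulAut (Cfsg.PSp m F)) ^ p = 1 := by
    rw [← hord]
    exact pow_orderOf_eq_one _
  have hσp : σ ^ p = 1 := by
    have h1 := hpow
    rw [pow_cG_fl] at h1
    exact eq_one_of_cG_mul_fl_eq_one r hm0 _ _ h1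
  have hσo : orderOf σ = p := orderOf_eq_prime hσp hσ1
  obtain ⟨b, hb⟩ := field_core hm0 g σ p (Fact.out : p.Prime).pos hσo hpow
  have hconj : (cG b)⁻¹ * (cG g * fl σ) * ((cG b)⁻¹)⁻¹ = (fl σ : MulAut (Cfsg.PSp m F)) := by
    rw [hb]
    group
  have hfield : Cfsg.IsFieldAutClassPSp (cG g * fl σ : MulAut (Cfsg.PSp m F)) := by
    refine ⟨(cG b)⁻¹, σ, hσ1, ?_⟩
    rw [hconj]
    exact isStd_fl σ
  rw [pPrimeCore_ne_bot_iff, ← hasPPrime_conj_iff p A (cG b)⁻¹, hconj,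
    ← card_fix_conj (cG b)⁻¹ (cG g * fl σ), hconj,
    balance_fl hm r p hpr σ hσp (hub_fix hm r)]
  · exact ⟨fun h => ⟨hfield, h⟩, fun h => h.2⟩
  · intro k
    refine ⟨MulAut.conj (cG b k), hinn _, ?_⟩
    show (cG b)⁻¹ * MulAut.conj (cG b k) * ((cG b)⁻¹)⁻¹ = MulAut.conj k
    rw [aut_conj_aux2, MulAut.inv_apply_self]

end Cfsg.Agent.Lib.Helper1.PSpAut
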