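import Mathlib
import Cfsg.Agent.Lib.Helper18.AutPSp.Gen2

set_option autoImplicit false
set_option linter.unusedSectionVars false
set_option linter.unusedVariables false

/-!
Characteristic `2`: the automorphisms of `PSp_{2m}(F)` preserving transvections have index at most
`2`; in particular squares and elements of odd order preserve transvections.
-/

namespace Cfsg.Agent.Lib.Helper1.PSpTwo

open Matrix Cfsg.Agent.Lib.Helper17 Cfsg.Agent.Lib.Helper18.AutPSp

variable {F : Type*} [Field F] {m : ℕ}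

theorem not_noFour_sg_mixed [CharP F 2] {i j : Fin m} (hij : i ≠ j) {c b : F}
    (hc : c ≠ 0) (hb : b ≠ 0) : ¬ NoFour (pm (sg (eb i : V m F) (c • eb j) b)) := by
  intro hN
  obtain ⟨A, hA⟩ := sp_witt_frame m ![(eb i : V m F), eb j] ![(fb j : V m F), eb i] (by
      rw [LinearIndependent.pair_iff]
      intro s t hst
      have h1 := congrArg (fun z => B (fb i) z) hst
      have h2 := congrArg (fun z => B (fb j) z) hst
      simp only [B_add_right, B_smul_right, B_fb_eb, B_fb_eb_ne hij, B_fb_eb_ne hij.symm,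
        B_zero_right, mul_zero, mul_one, add_zero, zero_add] at h1 h2
      exact ⟨h1, h2⟩) (by
      rw [LinearIndependent.pair_iff]
      intro s t hst
      have h1 := congrArg (fun z => B (eb j) z) hst
      have h2 := congrArg (fun z => B (fb i) z) hst
      simp only [B_add_right, B_smul_right, B_fb_eb, B_fb_fb, B_eb_eb, B_eb_fb,
        B_zero_right, mul_zero, mul_one, add_zero, zero_add, mul_neg, neg_eq_zero] at h1 h2
      exact ⟨h1, h2⟩) (by
      intro a b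
      fin_cases a <;> fin_cases b
      · show B (fb j : V m F) (fb j) = B (eb i : V m F) (eb i)
        rw [B_self, B_self]
      · show B (fb j : V m F) (eb i) = B (eb i : V m F) (eb j)
        rw [B_fb_eb_ne hij.symm, B_eb_eb]
      · show B (eb i : V m F) (fb j) = B (eb j : V m F) (eb i)
        rw [B_eb_fb_ne hij, B_eb_eb]
      · show B (eb i : V m F) (eb i) = B (eb j : V m F) (eb j)
        rw [B_self, B_self])
  have hA0 : A ∙ (eb i : V m F) = fb j := hA 0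
  have hA1 : A ∙ (eb j : V m F) = eb i := hA 1
  have hy : B (c • eb j : V m F) (eb i) = 0 := by rw [B_smul_left, B_eb_eb, mul_zero]
  have hy' : B (c • eb i : V m F) (fb j) = 0 := by rw [B_smul_left, B_eb_fb_ne hij, mul_zero]
  set s := sg (eb i : V m F) (c • eb j) b with hs
  set s' := sg (fb j : V m F) (c • eb i) b with hs'
  have hconj : A * s * A⁻¹ = s' := by rw [hs, sg_conj, hA0, ac_smul, hA1]
  have h1 := hN (pm A)
  rw [← pm_inv, ← pm_mul, ← pm_mul, hconj, ← pm_mul, ← pm_mul, ← pm_pow] at h1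
  have hs'2 : s' * s' = 1 := by rw [← sq, hs', sg_pow_char 2 hy']
  have hs'e : s' ∙ (eb i : V m F) = eb i := by
    rw [hs', ac_sg hy', B_eb_fb_ne hij, zero_smul, add_zero, B_smul_right, B_eb_eb, mul_zero,
      zero_smul, add_zero]
  have e1 : s' * s * s'⁻¹ = sg (eb i) (s' ∙ (c • eb j)) b := by
    rw [hs, sg_conj, hs'e]
  have hy2 : B (s' ∙ (c • eb j : V m F)) (eb i) = 0 := by rw [B_ac_fix hs'e, hy]
  have e2 : (s * s') ^ 2 = s * (s' * s * s'⁻¹) := by
    have : s'⁻¹ = s' := inv_eq_of_mul_eq_one_left hs'2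
    rw [this, sq]
    group
  have e3 : (s * s') ^ 4 = 1 := by
    rw [show 4 = 2 * 2 from rfl, pow_mul, e2, e1, hs, sg_mul hy hy2,
      sg_pow_char 2 (by rw [B_add_left, hy, hy2, add_zero])]
  have h2 := pm_injective_two (h1 (by rw [e3]; rfl))
  have h3 := congrArg (fun g => g ∙ (eb j : V m F)) h2
  simp only [ac_mul, hs, hs', ac_sg hy, ac_sg hy', B_add_left, B_smul_left, B_smul_right, B_fb_eb,
    B_eb_eb, B_eb_fb, B_fb_eb_ne hij.symm, B_eb_fb_ne hij] at h3
  have h4 : (b * c) • (eb i : V m F) = 0 := by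
    rw [← sub_eq_zero] at h3
    have h5 : (-(b * c)) • (eb i : V m F) = 0 := by
      rw [← h3]
      module
    rw [neg_smul, neg_eq_zero] at h5
    exact h5
  rcases smul_eq_zero.1 h4 with h5 | h5
  · exact (mul_ne_zero hb hc) h5
  · exact eb_ne_zero i h5

theorem sylCentral_form [Fintype F] [CharP F 2] {i j : Fin m} (hij : i ≠ j)
    {z : Cfsg.PSp m F} (h : IsSylCentral 2 z) :
    ∃ (g : Cfsg.PSp m F) (c b : F), z = g * pm (sg (eb i : V m F) (c • eb j) b) * g⁻¹ := by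
  obtain ⟨-, P, hz, hc⟩ := h
  have hm1 : 1 ≤ m := by
    have := i.2
    omega
  obtain ⟨P₀, hA, hB⟩ := exists_sylow_ge (F := F) 2 hij
  obtain ⟨g, hg⟩ := MulAction.exists_smul_eq (Cfsg.PSp m F) P₀ P
  have hmem : ∀ y, y ∈ P₀ → g * y * g⁻¹ ∈ P := by
    intro y hy
    rw [← hg]
    show g * y * g⁻¹ ∈ ((g • P₀ : Sylow 2 _) : Subgroup (Cfsg.PSp m F))
    rw [Sylow.coe_subgroup_smul]
    exact Subgroup.smul_mem_pointwise_smul y (MulAut.conj g) _ hy
  have hcomm : ∀ y ∈ P₀, y * (g⁻¹ * z * g) = (g⁻¹ * z * g) * y := by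
    intro y hy
    have := hc _ (hmem y hy)
    calc y * (g⁻¹ * z * g) = g⁻¹ * ((g * y * g⁻¹) * z) * g := by group
      _ = g⁻¹ * (z * (g * y * g⁻¹)) * g := by rw [this]
      _ = (g⁻¹ * z * g) * y := by group
  have hzz : z = g * (g⁻¹ * z * g) * g⁻¹ := by group
  set z' := g⁻¹ * z * g with hz'
  obtain ⟨y₀, b₀, hy₀, hz0, h2⟩ := central_form 2 hm1 (eb_ne_zero i) z' (fun y hy => hcomm y (hA hy))
  have key : ∀ y', B y' (eb i) = 0 → B y' (eb j) = 0 → ∀ b' : F,
      ∃ c : F, B y₀ (eb j) • (y' + b' • eb j) + B y₀ y' • eb j = c • (eb i : V m F) := by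
    intro y' h1 h2 b'
    have h3 := hcomm _ (hB ⟨y', ⟨h1, h2⟩, b', rfl⟩)
    rw [hz0] at h3
    have h5 := conj_eq_of_pm_commute 2 hm1 (sg_pow_char 2 hy₀ b₀) h3.symm
    have h6 : sg (eb j) y' b' ∙ (eb i : V m F) = eb i := by
      rw [ac_sg h2, B_eb_eb, zero_smul, add_zero, B_eq_zero_comm.1 h1, zero_smul, add_zero]
    rw [sg_conj, h6] at h5
    obtain ⟨c, hc⟩ := sg_eq_imp (eb_ne_zero i) hy₀ (by rw [B_ac_fix h6, hy₀]) h5
    refine ⟨c, ?_⟩
    rw [ac_sg h2, add_assoc] at hc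
    exact add_left_cancel hc
  have h5 : B y₀ (eb j) = 0 := by
    obtain ⟨c, hc⟩ := key 0 (B_zero_left _) (B_zero_left _) 1
    have h6 := congrArg (fun x => B (fb j) x) hc
    simpa only [B_add_right, B_smul_right, B_fb_eb, B_zero_right, B_fb_eb_ne hij.symm, mul_zero,
      mul_one, add_zero, zero_add] using h6
  have h6 : ∀ y', B y' (eb i) = 0 → B y' (eb j) = 0 → B y' y₀ = 0 := by
    intro y' h1 h2
    obtain ⟨c, hc⟩ := key y' h1 h2 0
    have h6 := congrArg (fun x => B (fb j) x) hc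
    rw [B_eq_zero_comm]
    simpa only [h5, zero_smul, B_add_right, B_smul_right, B_fb_eb, B_zero_right,
      B_fb_eb_ne hij.symm, mul_zero, mul_one, add_zero, zero_add] using h6
  obtain ⟨c₁, c₂, hcc⟩ := mem_span_two_of_perp _ _ _ h6
  have h7 : B (c₂ • eb j : V m F) (eb i) = 0 := by rw [B_smul_left, B_eb_eb, mul_zero]
  rw [hcc, add_comm, sg_add_smul h7] at hz0
  exact ⟨g, c₂, _, by rw [hzz, hz0]⟩

/-- the base transvection -/
abbrev t0 (hm : 2 ≤ m) : Cfsg.PSp m F := pm (tv (eb ⟨0, by omega⟩) (1 : F))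

/-- the base short root element -/
abbrev s0 (hm : 2 ≤ m) : Cfsg.PSp m F :=
  pm (sg (eb ⟨0, by omega⟩ : V m F) (eb ⟨1, by omega⟩) 0)

theorem noFour_conj {z : Cfsg.PSp m F} (g : Cfsg.PSp m F) (h : NoFour (g * z * g⁻¹)) :
    NoFour z := by
  have := h.map (MulAut.conj g⁻¹)
  rw [MulAut.conj_apply, inv_inv] at this
  have e : g⁻¹ * (g * z * g⁻¹) * g = z := by group
  rwa [e] at this

theorem image_t0 [Fintype F] [CharP F 2] (hm : 2 ≤ m) (β : MulAut (Cfsg.PSp m F)) :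
    IsTv (β (t0 hm)) ∨ ∃ g, β (t0 hm) = g * s0 hm * g⁻¹ := by
  set i : Fin m := ⟨0, by omega⟩ with hi
  set j : Fin m := ⟨1, by omega⟩ with hj
  have hij : i ≠ j := by
    intro h
    have := congrArg Fin.val h
    simp [hi, hj] at this
  have h1 : IsSylCentral 2 (β (t0 hm)) :=
    (isSylCentral_tv 2 (by omega) (eb_ne_zero _) one_ne_zero).map β
  have h2 : NoFour (β (t0 hm)) := (noFour_tv _ _).map β
  obtain ⟨g, c, b, hz⟩ := sylCentral_form hij h1
  rw [hz] at h2 ⊢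
  have h3 := noFour_conj g h2
  by_cases hc : c = 0
  · left
    apply IsTv.conj
    rw [hc, zero_smul, sg_zero]
    exact ⟨_, _, rfl⟩
  · right
    have hb : b = 0 := by
      by_contra hb
      exact not_noFour_sg_mixed hij hc hb h3
    subst hb
    refine ⟨g * pm (tor j c hc), ?_⟩
    have e : sg (eb i : V m F) (c • eb j) 0 = tor j c hc * sg (eb i) (eb j) 0 * (tor j c hc)⁻¹ := by
      rw [sg_conj, ac_tor_eb, ac_tor_of_mem _ _ (eb_mem_WW hij.symm)]
    have e' : (s0 hm : Cfsg.PSp m F) = pm (sg (eb i : V m F) (eb j) 0) := rfl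
    rw [e, pm_mul, pm_mul, pm_inv, e']
    group

/-- all nontrivial transvections are conjugate -/
theorem exists_conj_t0 [Finite F] [CharP F 2] (hm : 2 ≤ m) {t : Cfsg.PSp m F} (ht : IsTv t)
    (h1 : t ≠ 1) : ∃ g, t = g * t0 hm * g⁻¹ := by
  obtain ⟨v, a, rfl⟩ := ht
  have hv : v ≠ 0 := by
    rintro rfl
    exact h1 (by rw [tv_zero_left]; rfl)
  have ha : a ≠ 0 := by
    rintro rfl
    exact h1 (by rw [tv_zero]; rfl)
  obtain ⟨b, rfl⟩ := FiniteField.isSquare_of_char_two (ringChar.eq F 2) a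
  have hb : b ≠ 0 := by
    rintro rfl
    exact ha (mul_zero 0)
  obtain ⟨s, hs⟩ := exists_ac_eq (eb_ne_zero (F := F) ⟨0, by omega⟩) (smul_ne_zero hb hv)
  refine ⟨pm s, ?_⟩
  rw [← pm_inv, ← pm_mul, ← pm_mul, tv_conj, hs, tv_smul, mul_one, pow_two]

theorem isTv_one : IsTv (1 : Cfsg.PSp m F) := ⟨0, 0, by rw [tv_zero]; rfl⟩

/-- `β` maps the base transvection to a transvection -/
def Good (hm : 2 ≤ m) (β : MulAut (Cfsg.PSp m F)) : Prop := IsTv (β (t0 hm))

theorem Good.isTv [Finite F] [CharP F 2] {hm : 2 ≤ m} {β : MulAut (Cfsg.PSp m F)} (h : Good hm β)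
    {t : Cfsg.PSp m F} (ht : IsTv t) : IsTv (β t) := by
  by_cases h1 : t = 1
  · rw [h1, map_one]
    exact isTv_one
  obtain ⟨g, rfl⟩ := exists_conj_t0 hm ht h1
  rw [map_mul, map_mul, map_inv]
  exact IsTv.conj h _

theorem Good.mul [Finite F] [CharP F 2] {hm : 2 ≤ m} {β γ : MulAut (Cfsg.PSp m F)}
    (h : Good hm β) (h' : Good hm γ) : Good hm (β * γ) := h.isTv h'

theorem good_one (hm : 2 ≤ m) : Good hm (1 : MulAut (Cfsg.PSp m F)) := ⟨_, _, rfl⟩

theorem Good.pow [Finite F] [CharP F 2] {hm : 2 ≤ m} {β : MulAut (Cfsg.PSp m F)}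
    (h : Good hm β) (k : ℕ) : Good hm (β ^ k) := by
  induction k with
  | zero => rw [pow_zero]; exact good_one hm
  | succ k ih => rw [pow_succ]; exact ih.mul h

theorem t0_ne_one [CharP F 2] (hm : 2 ≤ m) : (t0 hm : Cfsg.PSp m F) ≠ 1 := by
  intro h
  rcases (pm_tv_eq_one_iff 2 (by omega)).1 h with h | h
  · exact eb_ne_zero _ h
  · exact one_ne_zero h

theorem Good.inv [Finite F] [CharP F 2] {hm : 2 ≤ m} {β : MulAut (Cfsg.PSp m F)}
    (h : Good hm β) : Good hm β⁻¹ := by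
  have h1 : β (t0 hm) ≠ 1 := fun h0 => t0_ne_one hm (β.injective (by rw [h0, map_one]))
  obtain ⟨g, hg⟩ := exists_conj_t0 hm h h1
  have h2 : t0 hm = β⁻¹ g * β⁻¹ (t0 hm) * (β⁻¹ g)⁻¹ := by
    rw [← map_inv, ← map_mul, ← map_mul, ← hg, MulAut.inv_apply_self]
  have h3 : β⁻¹ (t0 hm) = (β⁻¹ g)⁻¹ * t0 hm * ((β⁻¹ g)⁻¹)⁻¹ := by
    conv_rhs => rw [h2]
    group
  show IsTv (β⁻¹ (t0 hm))
  rw [h3]
  exact IsTv.conj ⟨_, _, rfl⟩ _

/-- squares preserve transvections -/
theorem good_sq [Fintype F] [CharP F 2] (hm : 2 ≤ m) (β : MulAut (Cfsg.PSp m F)) :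
    Good hm (β * β) := by
  by_cases h : Good hm β
  · exact h.mul h
  have h' : ¬ Good hm β⁻¹ := fun h0 => h (by simpa using h0.inv)
  obtain ⟨g, hg⟩ := (image_t0 hm β).resolve_left h
  obtain ⟨g', hg'⟩ := (image_t0 hm β⁻¹).resolve_left h'
  have e : β (t0 hm) = (g * g'⁻¹) * β⁻¹ (t0 hm) * (g * g'⁻¹)⁻¹ := by
    rw [hg, hg']
    group
  show IsTv (β (β (t0 hm)))
  rw [e, map_mul, map_mul, map_inv, MulAut.apply_inv_self]
  exact IsTv.conj ⟨_, _, rfl⟩ _

theorem Good.tvP [Finite F] [CharP F 2] {hm : 2 ≤ m} {β : MulAut (Cfsg.PSp m F)}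
    (h : Good hm β) : TvP β := ⟨fun _ ht => h.isTv ht, fun _ ht => h.inv.isTv ht⟩

/-- squares are semilinear -/
theorem sq_form [Fintype F] [CharP F 2] (hm : 2 ≤ m) (β : MulAut (Cfsg.PSp m F)) :
    ∃ (g : GL (Fin m ⊕ Fin m) F) (σ : F ≃+* F), g ∈ Cfsg.GSp m F ∧
      Cfsg.IsInducedBySemilinearPSp g σ (β * β) :=
  aut_form_g 2 hm _ (good_sq hm β).tvP

/-- elements of odd order are semilinear -/
theorem odd_form [Fintype F] [CharP F 2] (hm : 2 ≤ m) (β : MulAut (Cfsg.PSp m F)) {n : ℕ}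
    (hn : Odd n) (h : β ^ n = 1) :
    ∃ (g : GL (Fin m ⊕ Fin m) F) (σ : F ≃+* F), g ∈ Cfsg.GSp m F ∧
      Cfsg.IsInducedBySemilinearPSp g σ β := by
  obtain ⟨k, rfl⟩ := hn
  have e : β = (β * β) ^ (k + 1) := by
    rw [← pow_two, ← pow_mul, show 2 * (k + 1) = (2 * k + 1) + 1 by ring, pow_succ, h, one_mul]
  have hg : Good hm β := by
    rw [e]
    exact (good_sq hm β).pow _
  exact aut_form_g 2 hm _ hg.tvP

end Cfsg.Agent.Lib.Helper1.PSpTwo
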